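import Cfsg.Agent.L0.Fus.NormMap
import Cfsg.Agent.L0.Fus.Alperin2

/-!
S5331: abelian 2-groups with distinct invariants.
-/

set_option autoImplicit false
set_option maxHeartbeats 1000000

namespace Cfsg.Agent.L0.Fus.AbDist
open Cfsg.Agent.L0 Cfsg.FusionSystem Cfsg.Agent.L0.Fus

section A
variable {A : Type*} [Group A] (hab : ∀ x y : A, x * y = y * x)

theorem cop_step {α : MulAut A} {m p : ℕ} (hm : Nat.Coprime m p) (hα : α ^ m = 1) {x b : A} (hx : α x = b * x)
    (hb : α b = b) (hbp : b ^ p = 1) : b = 1 := by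
  have h1 : ∀ j : ℕ, (α ^ j) x = b ^ j * x := by
    intro j
    induction j with
    | zero => simp
    | succ j ih => rw [pow_succ', MulAut.mul_apply, ih, map_mul, map_pow, hb, hx, ← mul_assoc, ← pow_succ]
  have h2 := h1 m
  rw [hα, MulAut.one_apply] at h2
  have h3 : b ^ m = 1 := by
    have : 1 * x = b ^ m * x := by rw [one_mul]; exact h2
    exact (mul_right_cancel this).symm
  have h4 : orderOf b ∣ m := orderOf_dvd_of_pow_eq_one h3
  have h5 : orderOf b ∣ p := orderOf_dvd_of_pow_eq_one hbp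
  have h6 : orderOf b ∣ 1 := by rw [← hm]; exact Nat.dvd_gcd h4 h5
  rwa [Nat.dvd_one, orderOf_eq_one_iff] at h6

include hab in
theorem cop_fix {α : MulAut A} {m p : ℕ} (hm : Nat.Coprime m p) (hα : α ^ m = 1) (h1 : ∀ x : A, x ^ p = 1 → α x = x) :
    ∀ k : ℕ, ∀ x : A, x ^ (p ^ k) = 1 → α x = x := by
  intro k
  induction k with
  | zero => intro x hx; rw [pow_zero, pow_one] at hx; rw [hx, map_one]
  | succ k ih =>
    intro x hx
    have hbp : (α x * x⁻¹) ^ p = 1 := by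
      have hc : Commute (α x) x⁻¹ := hab _ _
      rw [hc.mul_pow, ← map_pow, ih (x ^ p) (by rw [← pow_mul, ← pow_succ']; exact hx), inv_pow, mul_inv_cancel]
    have h2 := cop_step hm hα (x := x) (b := α x * x⁻¹) (by group) (h1 _ hbp) hbp
    exact mul_inv_eq_one.mp h2

end A

/-- invariants -/
def Dk {A : Type*} [Group A] (k : ℕ) (x : A) : Prop := x ^ 2 = 1 ∧ ∃ y, y ^ (2 ^ k) = x

theorem dvd_of_two_mul {m : ℕ} (hm : 1 ≤ m) {z : ZMod (2 ^ m)} (hz : 2 * z = 0) : ∃ c : ℕ, z.val = 2 ^ (m - 1) * c := by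
  haveI : NeZero (2 ^ m) := ⟨pow_ne_zero _ two_ne_zero⟩
  have h1 : ((2 * z.val : ℕ) : ZMod (2 ^ m)) = 0 := by
    rw [Nat.cast_mul, ZMod.natCast_zmod_val]; exact_mod_cast hz
  rw [ZMod.natCast_eq_zero_iff] at h1
  have h2 : 2 ^ m = 2 * 2 ^ (m - 1) := by rw [← pow_succ']; congr 1; omega
  have h3 : 2 * 2 ^ (m - 1) ∣ 2 * z.val := h2 ▸ h1
  exact Nat.dvd_of_mul_dvd_mul_left (by norm_num) h3

theorem exists_div {m k : ℕ} (hkm : k < m) {z : ZMod (2 ^ m)} (hz : 2 * z = 0) : ∃ y : ZMod (2 ^ m), (2 ^ k : ℕ) • y = z := by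
  haveI : NeZero (2 ^ m) := ⟨pow_ne_zero _ two_ne_zero⟩
  obtain ⟨c, hc⟩ := dvd_of_two_mul (by omega) hz
  refine ⟨((2 ^ (m - 1 - k) * c : ℕ) : ZMod (2 ^ m)), ?_⟩
  rw [nsmul_eq_mul, ← Nat.cast_mul, ← mul_assoc, ← pow_add, show k + (m - 1 - k) = m - 1 by omega, ← hc, ZMod.natCast_zmod_val]

theorem add_zero_of {m : ℕ} (hm : 1 ≤ m) {z w : ZMod (2 ^ m)} (hz : 2 * z = 0) (hw : 2 * w = 0) (hz0 : z ≠ 0) (hw0 : w ≠ 0) :
    z + w = 0 := by
  haveI : NeZero (2 ^ m) := ⟨pow_ne_zero _ two_ne_zero⟩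
  obtain ⟨c, hc⟩ := dvd_of_two_mul hm hz
  obtain ⟨d, hd⟩ := dvd_of_two_mul hm hw
  have h2 : 2 ^ m = 2 ^ (m - 1) * 2 := by rw [← pow_succ]; congr 1; omega
  have key : ∀ (t : ZMod (2 ^ m)) (c : ℕ), t.val = 2 ^ (m - 1) * c → t ≠ 0 → c % 2 = 1 := by
    intro t c hc ht
    by_contra hcon
    apply ht
    obtain ⟨c', rfl⟩ : 2 ∣ c := by omega
    rw [← ZMod.natCast_zmod_val t, hc, ZMod.natCast_eq_zero_iff]
    exact ⟨c', by rw [← mul_assoc, ← h2]⟩
  have hc1 := key z c hc hz0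
  have hd1 := key w d hd hw0
  rw [← ZMod.natCast_zmod_val z, ← ZMod.natCast_zmod_val w, ← Nat.cast_add, ZMod.natCast_eq_zero_iff, hc, hd, ← mul_add]
  obtain ⟨t, ht⟩ : 2 ∣ c + d := by omega
  exact ⟨t, by rw [ht, ← mul_assoc, ← h2]⟩

section B
variable {A : Type*} [Group A] {n : ℕ} {a : Fin n → ℕ} (ha : StrictMono a) (ha1 : ∀ i, 1 ≤ a i)
  (e : A ≃* Multiplicative ((i : Fin n) → ZMod (2 ^ a i)))

/-- coordinate -/
def co (x : A) (i : Fin n) : ZMod (2 ^ a i) := (Multiplicative.toAdd (e x)) i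

theorem co_mul (x y : A) (i : Fin n) : co e (x * y) i = co e x i + co e y i := by
  unfold co; rw [map_mul]; rfl

theorem co_pow (x : A) (k : ℕ) (i : Fin n) : co e (x ^ k) i = k • co e x i := by
  unfold co; rw [map_pow]; rfl

theorem co_one (i : Fin n) : co e (1 : A) i = 0 := by
  unfold co; rw [map_one]; rfl

theorem co_ext {x y : A} (h : ∀ i, co e x i = co e y i) : x = y := by
  apply e.injective
  apply Multiplicative.toAdd.injective
  funext i
  exact h i

include e in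
theorem ab_of : ∀ x y : A, x * y = y * x := by
  intro x y
  apply co_ext e
  intro i
  rw [co_mul, co_mul, add_comm]

theorem co_two {x : A} (hx : x ^ 2 = 1) (i : Fin n) : 2 * co e x i = 0 := by
  have h := co_pow e x 2 i
  rw [hx, co_one, nsmul_eq_mul] at h
  exact_mod_cast h.symm

include ha1 in
theorem dk_iff {k : ℕ} {x : A} : Dk k x ↔ x ^ 2 = 1 ∧ ∀ i, a i ≤ k → co e x i = 0 := by
  constructor
  · rintro ⟨h1, y, rfl⟩
    refine ⟨h1, fun i hi => ?_⟩
    rw [co_pow, nsmul_eq_mul]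
    have : ((2 ^ k : ℕ) : ZMod (2 ^ a i)) = 0 := by
      rw [ZMod.natCast_eq_zero_iff]; exact pow_dvd_pow 2 hi
    rw [this, zero_mul]
  · rintro ⟨h1, h2⟩
    refine ⟨h1, ?_⟩
    have h3 : ∀ i, ∃ y : ZMod (2 ^ a i), (2 ^ k : ℕ) • y = co e x i := by
      intro i
      by_cases hi : a i ≤ k
      · exact ⟨0, by rw [smul_zero, h2 i hi]⟩
      · exact exists_div (by omega) (co_two e h1 i)
    choose y hy using h3
    refine ⟨e.symm (Multiplicative.ofAdd y), ?_⟩
    apply co_ext e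
    intro i
    rw [co_pow, ← hy i]
    congr 1
    unfold co
    rw [MulEquiv.apply_symm_apply]; rfl

include ha ha1 e in
theorem dk_mul {k : ℕ} {x y : A} (hx : Dk k x) (hy : Dk k y) (hx' : ¬ Dk (k + 1) x) (hy' : ¬ Dk (k + 1) y) : Dk (k + 1) (x * y) := by
  rw [dk_iff ha1 e] at hx hy hx' hy' ⊢
  have hab := ab_of e
  refine ⟨by rw [(show Commute x y from hab x y).mul_pow, hx.1, hy.1, one_mul], ?_⟩
  have h1 : ∃ i, a i = k + 1 ∧ co e x i ≠ 0 := by
    by_contra hcon
    push Not at hcon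
    exact hx' ⟨hx.1, fun i hi => by
      by_cases h : a i ≤ k
      · exact hx.2 i h
      · exact hcon i (by omega)⟩
  have h2 : ∃ i, a i = k + 1 ∧ co e y i ≠ 0 := by
    by_contra hcon
    push Not at hcon
    exact hy' ⟨hy.1, fun i hi => by
      by_cases h : a i ≤ k
      · exact hy.2 i h
      · exact hcon i (by omega)⟩
  obtain ⟨i, hi, hxi⟩ := h1
  obtain ⟨j, hj, hyj⟩ := h2
  obtain rfl : i = j := ha.injective (by rw [hi, hj])
  intro l hl
  rw [co_mul]
  by_cases h : a l ≤ k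
  · rw [hx.2 l h, hy.2 l h, add_zero]
  · obtain rfl : l = i := ha.injective (by rw [hi]; omega)
    exact add_zero_of (ha1 l) (co_two e hx.1 l) (co_two e hy.1 l) hxi hyj

include ha ha1 e in
theorem aut_trivial {α : MulAut A} {m : ℕ} (hm : Nat.Coprime m 2) (hα : α ^ m = 1) : α = 1 := by
  have hab := ab_of e
  obtain ⟨N, hN⟩ : ∃ N, ∀ i, a i ≤ N := ⟨∑ i, a i, fun i => Finset.single_le_sum (f := a) (fun j _ => Nat.zero_le _) (Finset.mem_univ i)⟩
  have hinv : ∀ (k : ℕ) (x : A), Dk k x → Dk k (α x) := by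
    rintro k x ⟨h1, y, rfl⟩
    exact ⟨by rw [← map_pow, h1, map_one], α y, by rw [map_pow]⟩
  have key : ∀ j k : ℕ, k + j = N → ∀ x, Dk k x → α x = x := by
    intro j
    induction j with
    | zero =>
      intro k hk x hx
      rw [dk_iff ha1 e] at hx
      have : x = 1 := by
        apply co_ext e
        intro i
        rw [co_one]
        exact hx.2 i (by have := hN i; omega)
      rw [this, map_one]
    | succ j ih =>
      intro k hk x hx
      have ih' := ih (k + 1) (by omega)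
      by_cases hx' : Dk (k + 1) x
      · exact ih' x hx'
      · have h1 : ¬ Dk (k + 1) (α x) := by
          intro h
          have h2 := ih' _ h
          have h3 : α x = x := α.injective h2
          rw [h3] at h
          exact hx' h
        have h2 := dk_mul ha ha1 e (hinv k x hx) hx h1 hx'
        have h3 := cop_step (b := α x * x) hm hα (by
          rw [mul_assoc, ← pow_two, hx.1, mul_one]) (ih' _ h2) h2.1
        have h4 : α x = x⁻¹ := eq_inv_of_mul_eq_one_left h3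
        rw [h4]
        exact inv_eq_of_mul_eq_one_left (by rw [← pow_two]; exact hx.1)
  have h1 : ∀ x : A, x ^ 2 = 1 → α x = x := by
    intro x hx
    have h2 : Dk 0 x := ⟨hx, x, by simp⟩
    -- climb
    exact key N 0 (by omega) x h2
  have h2 := cop_fix hab hm hα h1 N
  ext x
  apply h2
  apply co_ext e
  intro i
  rw [co_pow, co_one, nsmul_eq_mul]
  have : ((2 ^ N : ℕ) : ZMod (2 ^ a i)) = 0 := by
    rw [ZMod.natCast_eq_zero_iff]; exact pow_dvd_pow 2 (hN i)
  rw [this, zero_mul]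

end B

section C
variable {Ω : Type*} [Group Ω] {S : Subgroup Ω} [Finite S] {F : FusionSystem S}

theorem s5331 {n : ℕ} {a : Fin n → ℕ} (ha : StrictMono a) (ha1 : ∀ i, 1 ≤ a i)
    (e : S ≃* Multiplicative ((i : Fin n) → ZMod (2 ^ a i))) (hF : F.IsSaturated 2) : F = innerFusionSystem S := by
  obtain ⟨N, hN⟩ : ∃ N, ∀ i, a i ≤ N := ⟨∑ i, a i, fun i => Finset.single_le_sum (f := a) (fun j _ => Nat.zero_le _) (Finset.mem_univ i)⟩
  have hS : IsPGroup 2 S := by
    intro x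
    refine ⟨N, ?_⟩
    apply co_ext e
    intro i
    rw [co_pow, co_one, nsmul_eq_mul]
    have : ((2 ^ N : ℕ) : ZMod (2 ^ a i)) = 0 := by
      rw [ZMod.natCast_eq_zero_iff]; exact pow_dvd_pow 2 (hN i)
    rw [this, zero_mul]
  have hab : ∀ x ∈ S, ∀ y ∈ S, x * y = y * x := fun x hx y hy => congrArg Subtype.val (ab_of e ⟨x, hx⟩ ⟨y, hy⟩)
  have hnd := not_dvd_aut_of_abelian hS hF hab
  haveI := finite_autGroup (S := S) (le_refl S)
  have htr : ∀ α ∈ F.autGroup S, α = 1 := by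
    intro α hα
    refine aut_trivial ha ha1 e (m := Nat.card (F.autGroup S)) ?_ ?_
    · rw [Nat.coprime_comm, Nat.Prime.coprime_iff_not_dvd Nat.prime_two]
      exact hnd
    · have h1 : (⟨α, hα⟩ : F.autGroup S) ^ Nat.card (F.autGroup S) = 1 := pow_card_eq_one'
      exact congrArg Subtype.val h1
  refine eq_inner_of_isPGroup hS hF fun P hP => ?_
  intro β
  refine ⟨0, ?_⟩
  rw [pow_zero, pow_one]
  apply Subtype.ext
  ext x
  have h1 : Iso F P P β := (mem_autGroup F hP).mp β.2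
  obtain ⟨α, hα, h2⟩ := extend_of_abelian hS hF hab h1
  have h3 := h2 x
  rw [htr α hα] at h3
  exact h3.symm

end C

end Cfsg.Agent.L0.Fus.AbDist
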