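import Cfsg.Agent.L0.Fus.Agemo1
set_option autoImplicit false
/-! Exponent bound from the exponent of the centre. -/

open Pointwise
open scoped commutatorElement

namespace Cfsg.Agent.L0.Fus

open Cfsg.Agent.L0 Cfsg.FusionSystem

universe u v w

theorem pow_mem_upper {Q : Type*} [Group Q] {m : ℕ} (hm : ∀ z ∈ Subgroup.center Q, z ^ m = 1) :
    ∀ (i : ℕ) (x : Q), x ∈ Subgroup.upperCentralSeries Q (i + 1) → x ^ m ∈ Subgroup.upperCentralSeries Q i := by
  intro i
  induction i with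
  | zero =>
    intro x hx
    rw [zero_add, Subgroup.upperCentralSeries_one] at hx
    rw [Subgroup.upperCentralSeries_zero, Subgroup.mem_bot]
    exact hm x hx
  | succ i ih =>
    intro x hx
    rw [Subgroup.mem_upperCentralSeries_succ_iff]
    intro g
    have hc := Subgroup.mem_upperCentralSeries_succ_iff.mp hx g
    have h1 := ih _ hc
    -- work modulo `Z_i`
    let N := Subgroup.upperCentralSeries Q i
    haveI : N.Normal := inferInstance
    rw [← QuotientGroup.eq_one_iff] at h1 ⊢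
    have hcx : ∀ y : Q, ((⁅x, g⁆ : Q) : Q ⧸ N) * (y : Q ⧸ N) = (y : Q ⧸ N) * ((⁅x, g⁆ : Q) : Q ⧸ N) := by
      intro y
      have h2 := Subgroup.mem_upperCentralSeries_succ_iff.mp hc y
      rw [← QuotientGroup.eq_one_iff] at h2
      have h3 : ⁅((⁅x, g⁆ : Q) : Q ⧸ N), (y : Q ⧸ N)⁆ = 1 := h2
      rw [commutatorElement_eq_one_iff_mul_comm] at h3
      exact h3
    have h4 : ∀ k : ℕ, (x : Q ⧸ N) ^ k * (g : Q ⧸ N) = ((⁅x, g⁆ : Q) : Q ⧸ N) ^ k * (g : Q ⧸ N) * (x : Q ⧸ N) ^ k := by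
      intro k
      induction k with
      | zero => simp
      | succ k ihk =>
        have h5 : (x : Q ⧸ N) * (g : Q ⧸ N) = ((⁅x, g⁆ : Q) : Q ⧸ N) * (g : Q ⧸ N) * (x : Q ⧸ N) := by
          have h6 : x * g = ⁅x, g⁆ * g * x := by rw [commutatorElement_def]; group
          exact congrArg (fun z : Q => (z : Q ⧸ N)) h6
        have hcomm : Commute ((x : Q ⧸ N)) (((⁅x, g⁆ : Q) : Q ⧸ N) ^ k) := by
          apply Commute.pow_right
          exact (hcx x).symm
        rw [pow_succ', mul_assoc, ihk, ← mul_assoc, ← mul_assoc, hcomm.eq, mul_assoc _ (x : Q ⧸ N) (g : Q ⧸ N), h5,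
          pow_succ']
        have e2 : ((⁅x, g⁆ : Q) : Q ⧸ N) * ((⁅x, g⁆ : Q) : Q ⧸ N) ^ k = ((⁅x, g⁆ : Q) : Q ⧸ N) ^ k * ((⁅x, g⁆ : Q) : Q ⧸ N) :=
          ((Commute.refl _).pow_right k).eq
        rw [e2]
        simp only [mul_assoc]
    have h7 := h4 m
    have h8 : ((⁅x, g⁆ : Q) : Q ⧸ N) ^ m = 1 := h1
    rw [h8, one_mul] at h7
    have h9 : ⁅(x : Q ⧸ N) ^ m, (g : Q ⧸ N)⁆ = 1 := by
      rw [commutatorElement_eq_one_iff_mul_comm]; exact h7
    exact h9

theorem pow_eq_one_of_center {Q : Type*} [Group Q] {m c : ℕ} (hc : Subgroup.upperCentralSeries Q c = ⊤)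
    (hm : ∀ z ∈ Subgroup.center Q, z ^ m = 1) (x : Q) : x ^ (m ^ c) = 1 := by
  have key : ∀ (i : ℕ) (x : Q), x ∈ Subgroup.upperCentralSeries Q i → x ^ (m ^ i) = 1 := by
    intro i
    induction i with
    | zero =>
      intro x hx
      rw [Subgroup.upperCentralSeries_zero, Subgroup.mem_bot] at hx
      rw [hx, one_pow]
    | succ i ih =>
      intro x hx
      rw [pow_succ', pow_mul]
      exact ih _ (pow_mem_upper hm i x hx)
  exact key c x (by rw [hc]; trivial)

/-- S5219 -/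
theorem exponent_bound {Ω : Type*} [Group Ω] {S : Subgroup Ω} {F : FusionSystem S} [Finite S] {p : ℕ} [Fact p.Prime]
    (hS : IsPGroup p S) (hF : F.IsSaturated p) (n : ℕ)
    (hcl : Subgroup.lowerCentralSeries S (n * (p - 1) + 1) = ⊥) (hcore : F.core = ⊥) :
    Monoid.exponent S ∣ p ^ (n ^ 2 * (p - 1) + n) := by
  have h1 := le_core (agemo_center_normal hS hF n hcl)
  rw [hcore, le_bot_iff] at h1
  have hm : ∀ z ∈ Subgroup.center S, z ^ (p ^ n) = 1 := by
    intro z hz
    have h2 : (z : Ω) ^ (p ^ n) ∈ powerClosure p n (S ⊓ Subgroup.centralizer (S : Set Ω)) := by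
      refine Subgroup.subset_closure ⟨z, ⟨z.2, fun s hs => ?_⟩, rfl⟩
      exact congrArg Subtype.val (Subgroup.mem_center_iff.mp hz ⟨s, hs⟩)
    rw [h1, Subgroup.mem_bot] at h2
    exact Subtype.ext h2
  have hc : Subgroup.upperCentralSeries S (n * (p - 1) + 1) = ⊤ := by
    rw [← Subgroup.lowerCentralSeries_eq_bot_iff_upperCentralSeries_eq_top]
    rw [← Subgroup.top_subtype_lowerCentralSeries, Subgroup.map_eq_bot_iff_of_injective _ S.subtype_injective] at hcl
    exact hcl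
  apply Monoid.exponent_dvd_of_forall_pow_eq_one
  intro x
  have h3 := pow_eq_one_of_center hc hm x
  rw [← pow_mul] at h3
  have e : n ^ 2 * (p - 1) + n = n * (n * (p - 1) + 1) := by ring
  rw [e]; exact h3

end Cfsg.Agent.L0.Fus
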