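import Cfsg.Agent.L0.Fus.Agemo1
import Cfsg.Prelude.Def_PLocal
set_option autoImplicit false
/-! Abelian subgroups of maximal order and the agemo of a normal abelian subgroup. -/

open Pointwise
open scoped commutatorElement

namespace Cfsg.Agent.L0.Fus

open Cfsg.Agent.L0 Cfsg.FusionSystem

universe u v w

section
variable {P : Type*} [Group P] [Finite P]

theorem sup_comm_of {M N : Subgroup P} (hM : ∀ x ∈ M, ∀ y ∈ M, x * y = y * x) (hN : ∀ x ∈ N, ∀ y ∈ N, x * y = y * x)
    (h : ∀ m ∈ M, ∀ n ∈ N, m * n = n * m) : ∀ x ∈ M ⊔ N, ∀ y ∈ M ⊔ N, x * y = y * x := by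
  have hn : N ≤ Subgroup.normalizer (M : Set P) := by
    intro n hn
    refine mem_normalizer_of_finite fun m hm => ?_
    rw [← h m hm n hn, mul_inv_cancel_right]; exact hm
  intro x hx y hy
  obtain ⟨m, hm, n, hn', rfl⟩ := (mem_sup_of_normalizes hn).mp hx
  obtain ⟨m', hm', n', hn'', rfl⟩ := (mem_sup_of_normalizes hn).mp hy
  calc m * n * (m' * n') = m * (n * m') * n' := by group
    _ = m * (m' * n) * n' := by rw [h m' hm' n hn']
    _ = (m * m') * (n * n') := by group
    _ = (m' * m) * (n' * n) := by rw [hM m hm m' hm', hN n hn' n' hn'']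
    _ = m' * (m * n') * n := by group
    _ = m' * (n' * m) * n := by rw [h m hm n' hn'']
    _ = _ := by group

theorem card_sup_mul_inf {M N : Subgroup P} (h : ∀ m ∈ M, ∀ n ∈ N, m * n = n * m) :
    Nat.card ↥(M ⊔ N) * Nat.card ↥(M ⊓ N) = Nat.card M * Nat.card N := by
  have hn : N ≤ Subgroup.normalizer (M : Set P) := by
    intro n hn
    refine mem_normalizer_of_finite fun m hm => ?_
    rw [← h m hm n hn, mul_inv_cancel_right]; exact hm
  have h1 : Nat.card M * M.relIndex (M ⊔ N) = Nat.card ↥(M ⊔ N) := by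
    have := Subgroup.relIndex_mul_relIndex ⊥ M (M ⊔ N) bot_le le_sup_left
    rwa [Subgroup.relIndex_bot_left, Subgroup.relIndex_bot_left] at this
  have h2 : Nat.card ↥(M ⊓ N) * M.relIndex N = Nat.card N := by
    have := Subgroup.relIndex_mul_relIndex ⊥ (M ⊓ N) N bot_le inf_le_right
    rw [Subgroup.relIndex_bot_left, Subgroup.relIndex_bot_left, Subgroup.inf_relIndex_right] at this
    exact this
  rw [← h1, ← h2, relIndex_sup_of_normalizes hn]
  ring

theorem abelian_of {A : Subgroup P} (h : ∀ x ∈ A, ∀ y ∈ A, x * y = y * x) : IsMulCommutative A :=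
  ⟨⟨fun a b => Subtype.ext (h a a.2 b b.2)⟩⟩

theorem comm_of {A : Subgroup P} (h : IsMulCommutative A) : ∀ x ∈ A, ∀ y ∈ A, x * y = y * x :=
  fun x hx y hy => congrArg Subtype.val (h.is_comm.comm ⟨x, hx⟩ ⟨y, hy⟩)

theorem mem_of_comm_max {A : Subgroup P} (hA : A ∈ maxAbelianSubgroups P) {x : P} (hx : ∀ a ∈ A, a * x = x * a) : x ∈ A := by
  have h1 : IsMulCommutative ↥(A ⊔ Subgroup.zpowers x) := by
    apply abelian_of
    refine sup_comm_of (comm_of hA.1) ?_ ?_
    · rintro _ ⟨i, rfl⟩ _ ⟨j, rfl⟩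
      exact ((Commute.refl x).zpow_zpow i j).eq
    · rintro a ha _ ⟨i, rfl⟩
      exact ((show Commute a x from hx a ha).zpow_right i).eq
  have h2 := hA.2 _ h1
  have h3 : A = A ⊔ Subgroup.zpowers x := Subgroup.eq_of_le_of_card_ge le_sup_left h2
  rw [h3]
  exact le_sup_right (α := Subgroup P) (Subgroup.mem_zpowers x)

/-- the commutator `(a - 1) v`. -/
def dd (v a : P) : P := v⁻¹ * (a * v * a⁻¹)

theorem mem_max_of_card {A B : Subgroup P} (hA : A ∈ maxAbelianSubgroups P) (hB : IsMulCommutative B) (h : Nat.card A ≤ Nat.card B) :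
    B ∈ maxAbelianSubgroups P := ⟨hB, fun C hC => (hA.2 C hC).trans h⟩

variable {W : Subgroup P} [hWn : W.Normal]

theorem dd_mem {v : P} (hv : v ∈ W) (a : P) : dd v a ∈ W := W.mul_mem (W.inv_mem hv) (hWn.conj_mem v hv a)

/-- The counting lemma. -/
theorem card_key (hW : ∀ x ∈ W, ∀ y ∈ W, x * y = y * x) {A : Subgroup P} (hAc : ∀ x ∈ A, ∀ y ∈ A, x * y = y * x) {v : P} (hv : v ∈ W)
    {U : Subgroup P} (hU : U = Subgroup.closure {y : P | ∃ a ∈ A, y = dd v a}) :
    Nat.card A * Nat.card ↥(U ⊓ Subgroup.centralizer (A : Set P)) ≤ Nat.card U * Nat.card ↥(A ⊓ Subgroup.centralizer (U : Set P)) := by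
  have hUm : ∀ a : A, dd v a ∈ U := fun a => by rw [hU]; exact Subgroup.subset_closure ⟨a, a.2, rfl⟩
  have hUW : U ≤ W := by
    rw [hU, Subgroup.closure_le]
    rintro _ ⟨a, _, rfl⟩
    exact dd_mem hv a
  -- `a⁻¹ b` centralizes `U` when the commutators agree modulo the centralizer of `A`
  have key : ∀ a b : A, (dd v a)⁻¹ * dd v b ∈ Subgroup.centralizer (A : Set P) → ((a : P)⁻¹ * b) ∈ Subgroup.centralizer (U : Set P) := by
    intro a b hab
    -- z = (a v a⁻¹)⁻¹ (b v b⁻¹) is centralized by A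
    have hz : ∀ c ∈ A, c * ((a * v * (a : P)⁻¹)⁻¹ * (b * v * (b : P)⁻¹)) * c⁻¹ = (a * v * (a : P)⁻¹)⁻¹ * (b * v * (b : P)⁻¹) := by
      intro c hc
      have h1 := hab c hc
      have h2 : (dd v (a : P))⁻¹ * dd v (b : P) = (a * v * (a : P)⁻¹)⁻¹ * (b * v * (b : P)⁻¹) := by
        unfold dd; group
      rw [h2] at h1
      rw [h1, mul_inv_cancel_right]
    have hgen : ∀ c ∈ A, (a : P)⁻¹ * b * dd v c * ((a : P)⁻¹ * b)⁻¹ = dd v c := by
      intro c hc
      have h1 := hz c hc
      -- everything commutes inside W and A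
      have hac : (a : P) * c = c * a := hAc a a.2 c hc
      have hbc : (b : P) * c = c * b := hAc b b.2 c hc
      have e1 : c * ((a * v * (a : P)⁻¹)⁻¹ * (b * v * (b : P)⁻¹)) * c⁻¹ = (a * (c * v * c⁻¹) * (a : P)⁻¹)⁻¹ * (b * (c * v * c⁻¹) * (b : P)⁻¹) := by
        have : c * ((a * v * (a : P)⁻¹)⁻¹ * (b * v * (b : P)⁻¹)) * c⁻¹ = ((c * a) * v * (c * (a : P))⁻¹)⁻¹ * ((c * b) * v * (c * (b : P))⁻¹) := by group
        rw [this, ← hac, ← hbc]; group
      rw [e1] at h1
      -- b d(c) b⁻¹ = a d(c) a⁻¹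
      have hcv : c * v * c⁻¹ ∈ W := hWn.conj_mem v hv c
      have h3 : (b : P) * dd v c * (b : P)⁻¹ = a * dd v c * (a : P)⁻¹ := by
        have e2 : (b : P) * (c * v * c⁻¹) * (b : P)⁻¹ = a * (c * v * c⁻¹) * (a : P)⁻¹ * ((a * v * (a : P)⁻¹)⁻¹ * (b * v * (b : P)⁻¹)) := by
          rw [← h1]; group
        have e3 : (b : P) * dd v c * (b : P)⁻¹ = (b * v * (b : P)⁻¹)⁻¹ * (b * (c * v * c⁻¹) * (b : P)⁻¹) := by unfold dd; group
        have e4 : (a : P) * dd v c * (a : P)⁻¹ = (a * v * (a : P)⁻¹)⁻¹ * (a * (c * v * c⁻¹) * (a : P)⁻¹) := by unfold dd; group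
        rw [e3, e4, e2]
        have m1 : (b : P) * v * (b : P)⁻¹ ∈ W := hWn.conj_mem v hv b
        have m2 : (a : P) * v * (a : P)⁻¹ ∈ W := hWn.conj_mem v hv a
        have m3 : (a : P) * (c * v * c⁻¹) * (a : P)⁻¹ ∈ W := hWn.conj_mem _ hcv a
        set β := (b : P) * v * (b : P)⁻¹
        set α := (a : P) * v * (a : P)⁻¹
        set γ := (a : P) * (c * v * c⁻¹) * (a : P)⁻¹
        have c1 : β⁻¹ * (γ * (α⁻¹ * β)) = (γ * α⁻¹) * (β⁻¹ * β) := by
          have : β⁻¹ * (γ * α⁻¹) = (γ * α⁻¹) * β⁻¹ := hW _ (W.inv_mem m1) _ (W.mul_mem m3 (W.inv_mem m2))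
          calc β⁻¹ * (γ * (α⁻¹ * β)) = (β⁻¹ * (γ * α⁻¹)) * β := by group
            _ = _ := by rw [this]; group
        rw [c1, inv_mul_cancel, mul_one]
        exact hW _ m3 _ (W.inv_mem m2)
      calc (a : P)⁻¹ * b * dd v c * ((a : P)⁻¹ * b)⁻¹ = (a : P)⁻¹ * ((b : P) * dd v c * (b : P)⁻¹) * a := by group
        _ = _ := by rw [h3]; group
    have hle : U ≤ Subgroup.centralizer {(a : P)⁻¹ * b} := by
      rw [hU, Subgroup.closure_le]
      rintro _ ⟨c, hc, rfl⟩
      change dd v c ∈ Subgroup.centralizer {(a : P)⁻¹ * b}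
      rw [Subgroup.mem_centralizer_singleton_iff]
      have := hgen c hc
      rw [mul_inv_eq_iff_eq_mul] at this
      exact this.symm
    intro y hy
    exact Subgroup.mem_centralizer_singleton_iff.mp (hle hy)
  have hidx : ((Subgroup.centralizer (U : Set P)).subgroupOf A).index ≤ ((Subgroup.centralizer (A : Set P)).subgroupOf U).index := by
    rw [Subgroup.index_eq_card, Subgroup.index_eq_card]
    refine Nat.card_le_card_of_injective (fun q : A ⧸ (Subgroup.centralizer (U : Set P)).subgroupOf A =>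
      (QuotientGroup.mk (⟨dd v (Quotient.out q : A), hUm _⟩ : U) : U ⧸ (Subgroup.centralizer (A : Set P)).subgroupOf U)) ?_
    intro q r hqr
    have h1 : (⟨dd v (Quotient.out q : A), hUm _⟩ : U)⁻¹ * ⟨dd v (Quotient.out r : A), hUm _⟩ ∈ (Subgroup.centralizer (A : Set P)).subgroupOf U :=
      QuotientGroup.eq.mp hqr
    have h2 := key _ _ (Subgroup.mem_subgroupOf.mp h1)
    have h3 : (QuotientGroup.mk (Quotient.out q : A) : A ⧸ (Subgroup.centralizer (U : Set P)).subgroupOf A) = QuotientGroup.mk (Quotient.out r : A) :=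
      QuotientGroup.eq.mpr (Subgroup.mem_subgroupOf.mpr h2)
    rw [QuotientGroup.out_eq', QuotientGroup.out_eq'] at h3
    exact h3
  have h1 := Subgroup.card_mul_index ((Subgroup.centralizer (U : Set P)).subgroupOf A)
  have h2 := Subgroup.card_mul_index ((Subgroup.centralizer (A : Set P)).subgroupOf U)
  have e1 : Nat.card ((Subgroup.centralizer (U : Set P)).subgroupOf A) = Nat.card ↥(A ⊓ Subgroup.centralizer (U : Set P)) := by
    rw [← Subgroup.inf_subgroupOf_left, card_subgroupOf_of_le inf_le_left]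
  have e2 : Nat.card ((Subgroup.centralizer (A : Set P)).subgroupOf U) = Nat.card ↥(U ⊓ Subgroup.centralizer (A : Set P)) := by
    rw [← Subgroup.inf_subgroupOf_left, card_subgroupOf_of_le inf_le_left]
  rw [e1] at h1
  rw [e2] at h2
  rw [← h1, ← h2]
  calc _ = Nat.card ↥(A ⊓ Subgroup.centralizer (U : Set P)) * Nat.card ↥(U ⊓ Subgroup.centralizer (A : Set P)) * ((Subgroup.centralizer (U : Set P)).subgroupOf A).index := by ring
    _ ≤ Nat.card ↥(A ⊓ Subgroup.centralizer (U : Set P)) * Nat.card ↥(U ⊓ Subgroup.centralizer (A : Set P)) * ((Subgroup.centralizer (A : Set P)).subgroupOf U).index := Nat.mul_le_mul_left _ hidx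
    _ = _ := by ring

/-- An abelian subgroup of maximal order centralizes a normal abelian `W` once everything centralizing `℧¹(W)` centralizes `W`. -/
theorem thompson_agemo {p : ℕ} [Fact p.Prime] (hP : IsPGroup p P) (hW : ∀ x ∈ W, ∀ y ∈ W, x * y = y * x)
    (h : ∀ s : P, (∀ w ∈ W, s * w ^ p = w ^ p * s) → ∀ w ∈ W, s * w = w * s) {A : Subgroup P} (hA : A ∈ maxAbelianSubgroups P) :
    ∀ a ∈ A, ∀ w ∈ W, a * w = w * a := by
  classical
  by_contra hbad
  haveI : Fintype (Subgroup P) := Fintype.ofFinite _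
  let Bad : Finset (Subgroup P) := Finset.univ.filter (fun A => A ∈ maxAbelianSubgroups P ∧ ¬ ∀ a ∈ A, ∀ w ∈ W, a * w = w * a)
  obtain ⟨A, hAB, hmax⟩ := Finset.exists_max_image Bad (fun A => Nat.card ↥(A ⊓ W)) ⟨A, Finset.mem_filter.mpr ⟨Finset.mem_univ _, hA, hbad⟩⟩
  obtain ⟨-, hA, hbad⟩ := Finset.mem_filter.mp hAB
  have hAc := comm_of hA.1
  -- step 1
  have step1 : ∀ v ∈ W, Subgroup.closure {y : P | ∃ a ∈ A, y = dd v a} ≤ A := by
    intro v hv
    obtain ⟨U, hU⟩ : ∃ U : Subgroup P, U = Subgroup.closure {y : P | ∃ a ∈ A, y = dd v a} := ⟨_, rfl⟩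
    rw [← hU]
    have hcard := card_key hW hAc hv hU
    set CU := A ⊓ Subgroup.centralizer (U : Set P) with hCU
    have hUW : U ≤ W := by
      rw [hU, Subgroup.closure_le]
      rintro _ ⟨a, _, rfl⟩
      exact dd_mem hv a
    have hUX : ∀ m ∈ U, ∀ n ∈ CU, m * n = n * m := fun m hm n hn => hn.2 m hm
    have hBc : IsMulCommutative ↥(U ⊔ CU) := abelian_of (sup_comm_of (fun x hx y hy => hW x (hUW hx) y (hUW hy))
      (fun x hx y hy => hAc x hx.1 y hy.1) hUX)
    have hc2 := card_sup_mul_inf hUX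
    have hle1 : Nat.card ↥(U ⊓ CU) ≤ Nat.card ↥(U ⊓ Subgroup.centralizer (A : Set P)) :=
      Subgroup.card_le_of_le (le_inf inf_le_left (fun x hx => fun a ha => hAc a ha x hx.2.1))
    have hpos : 0 < Nat.card ↥(U ⊓ Subgroup.centralizer (A : Set P)) := Nat.card_pos
    have hB : U ⊔ CU ∈ maxAbelianSubgroups P := by
      refine mem_max_of_card hA hBc ?_
      have : Nat.card A * Nat.card ↥(U ⊓ Subgroup.centralizer (A : Set P)) ≤ Nat.card ↥(U ⊔ CU) * Nat.card ↥(U ⊓ Subgroup.centralizer (A : Set P)) := by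
        calc _ ≤ Nat.card U * Nat.card CU := hcard
          _ = Nat.card ↥(U ⊔ CU) * Nat.card ↥(U ⊓ CU) := hc2.symm
          _ ≤ _ := Nat.mul_le_mul_left _ hle1
      exact Nat.le_of_mul_le_mul_right this hpos
    have hAW : A ⊓ W ≤ CU := fun x hx => ⟨hx.1, fun u hu => hW u (hUW hu) x hx.2⟩
    by_cases hBb : ∀ a ∈ U ⊔ CU, ∀ w ∈ W, a * w = w * a
    · exfalso
      have hXW : CU = A ⊓ Subgroup.centralizer (W : Set P) := by
        apply le_antisymm
        · intro x hx
          exact ⟨hx.1, fun w hw => (hBb x (le_sup_right (α := Subgroup P) hx) w hw).symm⟩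
        · intro x hx
          exact ⟨hx.1, fun u hu => hx.2 u (hUW hu)⟩
      have hWX : ∀ m ∈ W, ∀ n ∈ CU, m * n = n * m := fun m hm n hn => (hBb n (le_sup_right (α := Subgroup P) hn) m hm).symm
      have h1 := card_sup_mul_inf hWX
      have h2 : Nat.card ↥(W ⊔ CU) ≤ Nat.card A := hA.2 _ (abelian_of (sup_comm_of hW (fun x hx y hy => hAc x hx.1 y hy.1) hWX))
      have h3 : Nat.card ↥(W ⊓ CU) ≤ Nat.card ↥(W ⊓ Subgroup.centralizer (A : Set P)) :=
        Subgroup.card_le_of_le (le_inf inf_le_left (fun x hx => fun a ha => hAc a ha x hx.2.1))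
      have h4 : Nat.card W * Nat.card CU ≤ Nat.card A * Nat.card ↥(W ⊓ Subgroup.centralizer (A : Set P)) := by
        rw [← h1]; exact Nat.mul_le_mul h2 h3
      have h5 : ∀ m ∈ U, ∀ n ∈ W ⊓ Subgroup.centralizer (A : Set P), m * n = n * m := fun m hm n hn => hW m (hUW hm) n hn.1
      have h6 := card_sup_mul_inf h5
      have h7 : U ⊓ (W ⊓ Subgroup.centralizer (A : Set P)) = U ⊓ Subgroup.centralizer (A : Set P) := by
        rw [← inf_assoc, inf_eq_left.mpr hUW]
      rw [h7] at h6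
      have h8 : Nat.card W ≤ Nat.card ↥(U ⊔ (W ⊓ Subgroup.centralizer (A : Set P))) := by
        have hp2 : 0 < Nat.card ↥(U ⊓ Subgroup.centralizer (A : Set P)) * Nat.card CU := Nat.mul_pos hpos Nat.card_pos
        refine Nat.le_of_mul_le_mul_right (c := Nat.card ↥(U ⊓ Subgroup.centralizer (A : Set P)) * Nat.card CU) ?_ hp2
        calc Nat.card W * (Nat.card ↥(U ⊓ Subgroup.centralizer (A : Set P)) * Nat.card CU)
            = (Nat.card W * Nat.card CU) * Nat.card ↥(U ⊓ Subgroup.centralizer (A : Set P)) := by ring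
          _ ≤ (Nat.card A * Nat.card ↥(W ⊓ Subgroup.centralizer (A : Set P))) * Nat.card ↥(U ⊓ Subgroup.centralizer (A : Set P)) := Nat.mul_le_mul_right _ h4
          _ = (Nat.card A * Nat.card ↥(U ⊓ Subgroup.centralizer (A : Set P))) * Nat.card ↥(W ⊓ Subgroup.centralizer (A : Set P)) := by ring
          _ ≤ (Nat.card U * Nat.card CU) * Nat.card ↥(W ⊓ Subgroup.centralizer (A : Set P)) := Nat.mul_le_mul_right _ hcard
          _ = (Nat.card U * Nat.card ↥(W ⊓ Subgroup.centralizer (A : Set P))) * Nat.card CU := by ring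
          _ = (Nat.card ↥(U ⊔ (W ⊓ Subgroup.centralizer (A : Set P))) * Nat.card ↥(U ⊓ Subgroup.centralizer (A : Set P))) * Nat.card CU := by rw [h6]
          _ = _ := by ring
      have h9 : U ⊔ (W ⊓ Subgroup.centralizer (A : Set P)) = W :=
        Subgroup.eq_of_le_of_card_ge (sup_le hUW inf_le_left) h8
      have h10 : ∀ k : ℕ, U ≤ (⊤ : Subgroup P).lowerCentralSeries k := by
        intro k
        induction k with
        | zero => exact le_top
        | succ k ih =>
          rw [hU, Subgroup.closure_le]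
          rintro _ ⟨a, ha, rfl⟩
          have hv' : v ∈ U ⊔ (W ⊓ Subgroup.centralizer (A : Set P)) := by rw [h9]; exact hv
          have hn : W ⊓ Subgroup.centralizer (A : Set P) ≤ Subgroup.normalizer (U : Set P) := by
            intro n hn
            refine mem_normalizer_of_finite fun m hm => ?_
            rw [← h5 m hm n hn, mul_inv_cancel_right]; exact hm
          obtain ⟨g, hg, z, hz, hgz⟩ := (mem_sup_of_normalizes hn).mp hv'
          have h11 : dd v a = ⁅g⁻¹, a⁆ := by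
            have hza : a * z = z * a := hz.2 a ha
            have hzg : z * g = g * z := (h5 g hg z hz).symm
            rw [← hgz]
            unfold dd
            rw [commutatorElement_def, inv_inv]
            calc (g * z)⁻¹ * (a * (g * z) * a⁻¹) = (g * z)⁻¹ * (a * g * z * a⁻¹) := by group
              _ = (z * g)⁻¹ * (a * g * (a⁻¹ * (a * z)) * a⁻¹) := by rw [hzg]; group
              _ = (z * g)⁻¹ * (a * g * (a⁻¹ * (z * a)) * a⁻¹) := by rw [hza]
              _ = g⁻¹ * (z⁻¹ * (a * g * a⁻¹) * z) := by group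
              _ = g⁻¹ * a * g * a⁻¹ := by
                have h12 : (a * g * a⁻¹) * z = z * (a * g * a⁻¹) := hW _ (hWn.conj_mem g (hUW hg) a) z hz.1
                calc g⁻¹ * (z⁻¹ * (a * g * a⁻¹) * z) = g⁻¹ * (z⁻¹ * ((a * g * a⁻¹) * z)) := by group
                  _ = _ := by rw [h12]; group
          rw [h11, SetLike.mem_coe, Subgroup.lowerCentralSeries_succ]
          exact Subgroup.commutator_mem_commutator (Subgroup.inv_mem _ (ih hg)) trivial
      haveI := hP.isNilpotent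
      obtain ⟨n, hn⟩ := Subgroup.nilpotent_iff_lowerCentralSeries.mp (this : Group.IsNilpotent P)
      have h11 : U = ⊥ := by
        have := h10 n
        rw [hn, le_bot_iff] at this
        exact this
      rw [h11, bot_sup_eq] at h9
      apply hbad
      intro a ha w hw
      rw [← h9] at hw
      exact hw.2 a ha
    · have h1 := hmax (U ⊔ CU) (Finset.mem_filter.mpr ⟨Finset.mem_univ _, hB, hBb⟩)
      have h2 : A ⊓ W ≤ (U ⊔ CU) ⊓ W := le_inf (hAW.trans le_sup_right) inf_le_right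
      have h3 := Subgroup.eq_of_le_of_card_ge h2 h1
      have h4 : U ≤ A ⊓ W := by rw [h3]; exact le_inf le_sup_left hUW
      exact h4.trans inf_le_left
  -- step 3
  push Not at hbad
  obtain ⟨a₀, ha₀, w₀, hw₀, hne⟩ := hbad
  have hex : ∃ k : ℕ, ∀ w ∈ W, a₀ ^ p ^ k * w = w * a₀ ^ p ^ k := by
    obtain ⟨k, hk⟩ := hP a₀
    exact ⟨k, fun w _ => by rw [hk, one_mul, mul_one]⟩
  obtain ⟨j, hj⟩ : ∃ j, Nat.find hex = j + 1 := by
    refine Nat.exists_eq_succ_of_ne_zero fun h0 => ?_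
    have h1 := Nat.find_spec hex
    rw [h0, pow_zero, pow_one] at h1
    exact hne (h1 w₀ hw₀)
  have hb1 := Nat.find_min hex (show j < Nat.find hex by omega)
  have hb2 := Nat.find_spec hex
  rw [hj, pow_succ, pow_mul] at hb2
  set b := a₀ ^ p ^ j with hb
  have hbA : b ∈ A := A.pow_mem ha₀ _
  apply hb1
  apply h b
  intro w hw
  have hdW := dd_mem hw b
  have hdA : dd w b ∈ A := step1 w hw (Subgroup.subset_closure ⟨b, hbA, rfl⟩)
  have hbd : b * dd w b = dd w b * b := hAc b hbA _ hdA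
  have hwd : w * dd w b = dd w b * w := hW w hw _ hdW
  have h1 : ∀ n : ℕ, b ^ n * w * (b ^ n)⁻¹ = w * (dd w b) ^ n := by
    intro n
    induction n with
    | zero => simp
    | succ n ih =>
      have h2 : b ^ (n + 1) * w * (b ^ (n + 1))⁻¹ = b * (b ^ n * w * (b ^ n)⁻¹) * b⁻¹ := by rw [pow_succ']; group
      have h3 : b * w * b⁻¹ = w * dd w b := by unfold dd; group
      have h4 : b * (dd w b) ^ n * b⁻¹ = (dd w b) ^ n := by
        rw [mul_inv_eq_iff_eq_mul]
        exact ((show Commute b (dd w b) from hbd).pow_right n).eq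
      rw [h2, ih]
      calc b * (w * dd w b ^ n) * b⁻¹ = (b * w * b⁻¹) * (b * (dd w b) ^ n * b⁻¹) := by group
        _ = w * (dd w b * (dd w b) ^ n) := by rw [h3, h4, mul_assoc]
        _ = _ := by rw [← pow_succ']
  have h2 := h1 p
  rw [hb2 w hw, mul_inv_cancel_right] at h2
  have h3 : (dd w b) ^ p = 1 := (mul_eq_left.mp h2.symm)
  have h4 : b * w ^ p * b⁻¹ = w ^ p := by
    have h5 : b * w * b⁻¹ = w * dd w b := by unfold dd; group
    rw [← conj_pow, h5, (show Commute w (dd w b) from hwd).mul_pow, h3, mul_one]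
  rw [mul_inv_eq_iff_eq_mul] at h4
  exact h4

end

end Cfsg.Agent.L0.Fus
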