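import Cfsg.Agent.L0.Fus.GenJ1
import Cfsg.Agent.L0.Fus.Well3
set_option autoImplicit false
/-! The Thompson subgroup as a functor; the induction over a family of subgroups. -/

open Pointwise
open scoped commutatorElement

namespace Cfsg.Agent.L0.Fus

open Cfsg.Agent.L0 Cfsg.FusionSystem

universe u v w

theorem exists_maxAbelian (P : Type*) [Group P] [Finite P] : ∃ A : Subgroup P, A ∈ maxAbelianSubgroups P := by
  classical
  haveI : Fintype (Subgroup P) := Fintype.ofFinite _
  let C : Finset (Subgroup P) := Finset.univ.filter (fun A => IsMulCommutative A)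
  have hne : C.Nonempty := ⟨⊥, Finset.mem_filter.mpr ⟨Finset.mem_univ _, abelian_of (by
    intro x hx y hy
    rw [Subgroup.mem_bot] at hx hy
    rw [hx, hy])⟩⟩
  obtain ⟨A, hA, hmax⟩ := Finset.exists_max_image C (fun A => Nat.card A) hne
  exact ⟨A, (Finset.mem_filter.mp hA).2, fun B hB => hmax B (Finset.mem_filter.mpr ⟨Finset.mem_univ _, hB⟩)⟩

theorem maxAbelian_map {Q R : Type*} [Group Q] [Group R] [Finite Q] [Finite R] (φ : Q ≃* R) {A : Subgroup Q} (hA : A ∈ maxAbelianSubgroups Q) :
    A.map φ.toMonoidHom ∈ maxAbelianSubgroups R := by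
  have hc : Nat.card (A.map φ.toMonoidHom) = Nat.card A := Subgroup.card_map_of_injective φ.injective
  refine ⟨?_, fun B hB => ?_⟩
  · apply abelian_of
    rintro _ ⟨x, hx, rfl⟩ _ ⟨y, hy, rfl⟩
    rw [← map_mul, ← map_mul, comm_of hA.1 x hx y hy]
  · have h1 := hA.2 (B.map φ.symm.toMonoidHom) (by
      apply abelian_of
      rintro _ ⟨x, hx, rfl⟩ _ ⟨y, hy, rfl⟩
      rw [← map_mul, ← map_mul, comm_of hB x hx y hy])
    rw [Subgroup.card_map_of_injective φ.symm.injective] at h1
    rw [hc]; exact h1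

theorem thompsonA_map {Q R : Type*} [Group Q] [Group R] [Finite Q] [Finite R] (φ : Q ≃* R) : (thompsonSubgroupA Q).map φ.toMonoidHom = thompsonSubgroupA R := by
  apply le_antisymm
  · rw [Subgroup.map_le_iff_le_comap, thompsonSubgroupA]
    refine sSup_le fun A hA => ?_
    rw [← Subgroup.map_le_iff_le_comap]
    exact le_sSup (maxAbelian_map φ hA)
  · conv_lhs => rw [thompsonSubgroupA]
    refine sSup_le fun A hA => ?_
    have h1 : A.map φ.symm.toMonoidHom ≤ thompsonSubgroupA Q := le_sSup (maxAbelian_map φ.symm hA)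
    intro x hx
    exact ⟨φ.symm x, h1 ⟨x, hx, rfl⟩, φ.apply_symm_apply x⟩

/-- the functor `J`. -/
noncomputable def wJ (p : ℕ) [Fact p.Prime] : WFun.{u} p :=
  WFun.mk' (fun Q _ => thompsonSubgroupA Q) (fun Q _ _ _ hnt h => by
    obtain ⟨A, hA⟩ := exists_maxAbelian Q
    have h1 : A ≤ ⊥ := by rw [← h]; exact le_sSup hA
    obtain ⟨x, hx⟩ := exists_ne (1 : Q)
    have h2 : x ∈ A := by
      apply mem_of_comm_max hA
      intro a ha
      rw [Subgroup.mem_bot.mp (h1 ha), one_mul, mul_one]
    exact hx (Subgroup.mem_bot.mp (h1 h2))) (fun Q R _ _ _ _ φ => by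
      haveI : Finite R := Finite.of_equiv _ φ.toEquiv
      exact thompsonA_map φ)

theorem wJ_eq {p : ℕ} [Fact p.Prime] {Ω : Type u} [Group Ω] (T : Subgroup Ω) : (wJ.{u} p).W T = thompsonSubgroupAOf T := rfl

section
variable {p : ℕ} [Fact p.Prime] {Ω : Type u} [Group Ω] {T : Subgroup Ω} [Finite T]

theorem mem_J_of_comm {x : Ω} (hx : x ∈ T) (h : ∀ y ∈ (wJ.{u} p).W T, y * x = x * y) : x ∈ (wJ.{u} p).W T := by
  obtain ⟨A, hA⟩ := exists_maxAbelian T
  have h1 : (⟨x, hx⟩ : T) ∈ A := by
    apply mem_of_comm_max hA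
    intro a ha
    exact Subtype.ext (h a ⟨a, le_sSup hA ha, rfl⟩)
  exact ⟨⟨x, hx⟩, le_sSup hA h1, rfl⟩

theorem J_eq_of_le {Q : Subgroup Ω} (hQT : Q ≤ T) (h : (wJ.{u} p).W T ≤ Q) : (wJ.{u} p).W T = (wJ.{u} p).W Q := by
  haveI := finite_of_le hQT
  -- abelian subgroups of maximal order of `T` lie in `Q`
  have hmem : ∀ A ∈ maxAbelianSubgroups T, A.map T.subtype ≤ Q := by
    intro A hA
    refine le_trans ?_ h
    exact Subgroup.map_mono (le_sSup hA)
  obtain ⟨A₀, hA₀⟩ := exists_maxAbelian T
  have hcard : ∀ {X : Subgroup Ω} (A : Subgroup X), Nat.card (A.map X.subtype) = Nat.card A := fun {X} A =>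
    Subgroup.card_map_of_injective X.subtype_injective
  -- maximal abelian subgroups of `T` give those of `Q`
  have key1 : ∀ A ∈ maxAbelianSubgroups T, (A.map T.subtype).subgroupOf Q ∈ maxAbelianSubgroups Q := by
    intro A hA
    refine ⟨abelian_of ?_, fun B hB => ?_⟩
    · intro x hx y hy
      obtain ⟨x', hx', hxx⟩ := hx
      obtain ⟨y', hy', hyy⟩ := hy
      apply Subtype.ext
      have hxx' : (x' : Ω) = x := hxx
      have hyy' : (y' : Ω) = y := hyy
      change (x : Ω) * y = y * x
      rw [← hxx', ← hyy']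
      exact congrArg Subtype.val (comm_of hA.1 x' hx' y' hy')
    · rw [card_subgroupOf_of_le (hmem A hA), hcard]
      have hBT : B.map Q.subtype ≤ T := (Subgroup.map_subtype_le B).trans hQT
      have h1 := hA.2 ((B.map Q.subtype).subgroupOf T) (abelian_of (by
        intro x hx y hy
        obtain ⟨x', hx', hxx⟩ := hx
        obtain ⟨y', hy', hyy⟩ := hy
        apply Subtype.ext
        have hxx' : (x' : Ω) = x := hxx
        have hyy' : (y' : Ω) = y := hyy
        change (x : Ω) * y = y * x
        rw [← hxx', ← hyy']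
        exact congrArg Subtype.val (comm_of hB x' hx' y' hy')))
      rw [card_subgroupOf_of_le hBT, hcard] at h1
      exact h1
  have key2 : ∀ B ∈ maxAbelianSubgroups Q, (B.map Q.subtype).subgroupOf T ∈ maxAbelianSubgroups T := by
    intro B hB
    have hBT : B.map Q.subtype ≤ T := (Subgroup.map_subtype_le B).trans hQT
    refine mem_max_of_card hA₀ (abelian_of ?_) ?_
    · intro x hx y hy
      obtain ⟨x', hx', hxx⟩ := hx
      obtain ⟨y', hy', hyy⟩ := hy
      apply Subtype.ext
      have hxx' : (x' : Ω) = x := hxx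
      have hyy' : (y' : Ω) = y := hyy
      change (x : Ω) * y = y * x
      rw [← hxx', ← hyy']
      exact congrArg Subtype.val (comm_of hB.1 x' hx' y' hy')
    · rw [card_subgroupOf_of_le hBT, hcard]
      have h1 := hB.2 _ (key1 A₀ hA₀).1
      rw [card_subgroupOf_of_le (hmem A₀ hA₀), hcard] at h1
      exact h1
  apply le_antisymm
  · rintro _ ⟨x, hx, rfl⟩
    have h1 : thompsonSubgroupA T ≤ ((thompsonSubgroupA Q).map Q.subtype).subgroupOf T := by
      refine sSup_le fun A hA => ?_
      intro a ha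
      have haQ : (a : Ω) ∈ Q := hmem A hA ⟨a, ha, rfl⟩
      have h2 : (⟨a, haQ⟩ : Q) ∈ (A.map T.subtype).subgroupOf Q := ⟨a, ha, rfl⟩
      exact ⟨⟨a, haQ⟩, le_sSup (key1 A hA) h2, rfl⟩
    exact h1 hx
  · rintro _ ⟨x, hx, rfl⟩
    have h1 : thompsonSubgroupA Q ≤ ((thompsonSubgroupA T).map T.subtype).subgroupOf Q := by
      refine sSup_le fun B hB => ?_
      intro b hb
      have hbT : (b : Ω) ∈ T := hQT b.2
      have h2 : (⟨b, hbT⟩ : T) ∈ (B.map Q.subtype).subgroupOf T := ⟨b, hb, rfl⟩
      exact ⟨⟨b, hbT⟩, le_sSup (key2 B hB) h2, rfl⟩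
    exact h1 hx

end

/-- characteristic subgroups from a functor. -/
theorem WFun.char {p : ℕ} (W : WFun.{u} p) {Ω : Type u} [Group Ω] {Q : Subgroup Ω} [Finite Q] (hQ : IsPGroup p Q) :
    ((W.W Q).subgroupOf Q).Characteristic := by
  rw [Subgroup.characteristic_iff_comap_eq]
  intro φ
  ext x
  exact (W.iso Q Q hQ φ x).symm

/-- The well placed induction relative to a family. -/
theorem wpi' {Ω : Type u} [Group Ω] {S : Subgroup Ω} [Finite S] {p : ℕ} [Fact p.Prime] {F : FusionSystem S} (hS : IsPGroup p S)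
    (hF : F.IsSaturated p) (D : FusionSystem S) (C : Subgroup Ω → Prop) (Wp : Subgroup Ω → Subgroup Ω)
    (hconj : ∀ R R' : Subgroup Ω, F.IsConj R R' → C R → C R')
    (hess : ∀ U : Subgroup Ω, (U = S ∨ F.IsEssential p U) → C U)
    (hW1 : ∀ R : Subgroup Ω, F.IsFullyNormalized R → C R → C (Wp (normalizerIn S R)))
    (hW0 : ∀ T : Subgroup Ω, T ≤ S → Wp T ≤ S) (hW2 : ∀ T : Subgroup Ω, T ≤ S → normalizerIn S T ≤ normalizerIn S (Wp T))
    (ha : LocIn F D (Wp S))
    (hb : ∀ R : Subgroup Ω, C R → F.IsFullyNormalized R → LocIn F D (Wp (normalizerIn S R)) → LocIn F D R) : F ≤ D := by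
  have key : ∀ (m : ℕ) (R : Subgroup Ω), R ≤ S → C R → Nat.card S - Nat.card (normalizerIn S R) = m → LocIn F D R := by
    intro m
    induction m using Nat.strong_induction_on with
    | _ m ih =>
      intro R hR hR1 hm
      have hle : Nat.card (normalizerIn S R) ≤ Nat.card S := Subgroup.card_le_of_le inf_le_left
      have ih' : ∀ R' : Subgroup Ω, R' ≤ S → C R' → Nat.card (normalizerIn S R) < Nat.card (normalizerIn S R') → LocIn F D R' := by
        intro R' hR' hR'1 hlt
        have hle' : Nat.card (normalizerIn S R') ≤ Nat.card S := Subgroup.card_le_of_le inf_le_left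
        exact ih _ (by omega) R' hR' hR'1 rfl
      have step1 : ∀ R' : Subgroup Ω, C R' → F.IsFullyNormalized R' → Nat.card (normalizerIn S R) = Nat.card (normalizerIn S R') →
          LocIn F D R' := by
        intro R' hR'1 hfn hc
        refine hb R' hR'1 hfn ?_
        have hTS : normalizerIn S R' ≤ S := inf_le_left
        by_cases hTlt : normalizerIn S R' = S
        · rw [hTlt]; exact ha
        · have hlt := lt_normalizerIn hS (lt_of_le_of_ne hTS hTlt)
          have hlt2 : normalizerIn S R' < normalizerIn S (Wp (normalizerIn S R')) := lt_of_lt_of_le hlt (hW2 _ hTS)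
          refine ih' _ (hW0 _ hTS) (hW1 _ hfn hR'1) ?_
          rw [hc]
          exact card_lt_of_lt hlt2
      by_cases hfn : F.IsFullyNormalized R
      · exact step1 R hR1 hfn rfl
      · obtain ⟨R', hconj', hfn'⟩ := exists_fullyNormalized (F := F) hR
        obtain ⟨φ, hφ, hv, hm'⟩ := exists_map_normalizerIn_sat hS hF hfn' hconj'
        have hR'1 : C R' := hconj _ _ hconj' hR1
        have hloc : LocIn F D R' := by
          rcases eq_or_ne (Nat.card (normalizerIn S R)) (Nat.card (normalizerIn S R')) with h | h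
          · exact step1 R' hR'1 hfn' h
          · refine ih' R' hfn'.1 hR'1 (lt_of_le_of_ne ?_ h)
            exact hfn'.2 _ (isConj_symm hconj')
        refine LocIn.of_conj hR hφ ?_ hv hm' hloc
        have hTS : normalizerIn S R < S := by
          refine lt_of_le_of_ne inf_le_left fun h => hfn ⟨hR, fun Q _ => ?_⟩
          rw [h]
          exact Subgroup.card_le_of_le inf_le_left
        refine alperin_partial hS hF D (Nat.card (normalizerIn S R)) ?_ le_rfl hφ
        intro U hU hcU
        have hUS : U ≤ S := by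
          rcases hU with rfl | h
          · exact le_rfl
          · exact h.1.1
        refine (ih' U hUS (hess U hU) ?_).aut hUS
        by_cases hUeq : U = S
        · have : normalizerIn S U = S := by rw [hUeq]; exact inf_eq_left.mpr Subgroup.le_normalizer
          rw [this]
          exact card_lt_of_lt hTS
        · have := lt_normalizerIn hS (lt_of_le_of_ne hUS hUeq)
          exact lt_of_le_of_lt hcU (card_lt_of_lt this)
  refine alperin_goldschmidt hS hF D fun P hP => ?_
  have hPS : P ≤ S := by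
    rcases hP with rfl | h
    · exact le_rfl
    · exact h.1.1
  exact (key _ P hPS (hess P hP) rfl).aut hPS

end Cfsg.Agent.L0.Fus
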