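import Cfsg.Agent.L0.Fus.GenJ2
import Cfsg.Agent.L0.Fus.Agemo1
set_option autoImplicit false
/-! Generation by the centralizer of the powers of the centre and the normalizer of `J(S)`. -/

open Pointwise

namespace Cfsg.Agent.L0.Fus

open Cfsg.Agent.L0 Cfsg.FusionSystem

universe u v w

/-- the subgroup generated by the `p`-th powers of the centre. -/
abbrev Vp (p : ℕ) {Ω : Type u} [Group Ω] (S : Subgroup Ω) : Subgroup Ω := powerClosure p 1 (S ⊓ Subgroup.centralizer (S : Set Ω))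

theorem Vp_mono {p : ℕ} {Ω : Type u} [Group Ω] {S N : Subgroup Ω} (hNS : N ≤ S) (hZ : S ⊓ Subgroup.centralizer (S : Set Ω) ≤ N) :
    Vp p S ≤ Vp p N := by
  refine (Subgroup.closure_le _).mpr ?_
  rintro _ ⟨z, hz, rfl⟩
  exact Subgroup.subset_closure ⟨z, ⟨hZ hz, Subgroup.centralizer_le hNS hz.2⟩, rfl⟩

theorem Vp_le {p : ℕ} {Ω : Type u} [Group Ω] {S : Subgroup Ω} : Vp p S ≤ S ⊓ Subgroup.centralizer (S : Set Ω) := by
  refine (Subgroup.closure_le _).mpr ?_
  rintro _ ⟨z, hz, rfl⟩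
  exact Subgroup.pow_mem _ hz _

section
variable {Ω : Type u} [Group Ω] {S : Subgroup Ω} {F : FusionSystem S}

theorem mem_centralizerHom_of {Q P : Subgroup Ω} (hQ : Q ≤ S ⊓ Subgroup.centralizer (S : Set Ω)) {φ : P →* Ω} {R : Subgroup Ω} {ψ : R →* Ω}
    (hψ : ψ ∈ F.Hom R) (hPR : P ≤ R) (hQR : Q ≤ R) (h : ∀ x : P, ψ (Subgroup.inclusion hPR x) = φ x)
    (h' : ∀ x : Q, ψ (Subgroup.inclusion hQR x) = x) : φ ∈ F.centralizerHom Q P := by
  have hc : ∀ x ∈ S, x ∈ centralizerIn S Q := fun x hx => Subgroup.mem_inf.mpr ⟨hx, by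
    rw [Subgroup.mem_centralizer_iff]
    intro y hy
    exact (Subgroup.mem_centralizer_iff.mp (hQ hy).2 x hx).symm⟩
  have hφ : φ ∈ F.Hom P := mem_of_agree F hψ hPR (fun x => (h x).symm)
  have hle : P ⊔ Q ≤ R := sup_le hPR hQR
  exact ⟨hφ, fun x hx => hc x (hom_le F hφ hx), fun x => hc _ (hom_mem F hφ x), ψ.comp (Subgroup.inclusion hle), restrict_mem F hψ hle,
    h, h'⟩

/-- maps of the normalizer of `J` extended by a normal subgroup. -/
theorem normalizerHom_sup_normal [Finite S] {Q J P : Subgroup Ω} (hQ : F.IsNormal Q) {φ : P →* Ω} (hφ : φ ∈ F.normalizerHom J P) :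
    φ ∈ F.normalizerHom (J ⊔ Q) P := by
  obtain ⟨h1, h2, h3, ψ, hψ, h5, h6⟩ := hφ
  obtain ⟨χ, hχ, h7, κ, hκ⟩ := (isNormal_iff.mp hQ).2 _ ψ hψ
  have hQn := StronglyClosed.le_normalizer (stronglyClosed_of_normal hQ)
  have hN : normalizerIn S J ≤ normalizerIn S (J ⊔ Q) := fun x hx => Subgroup.mem_inf.mpr ⟨hx.1, by
    have hx1 : x ∈ Subgroup.normalizer (J : Set Ω) := hx.2
    have hx2 := hQn hx.1
    rw [Subgroup.mem_normalizer_iff] at hx1 hx2 ⊢
    have hJ : J.map (MulAut.conj x).toMonoidHom = J := by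
      ext y; constructor
      · rintro ⟨z, hz, rfl⟩; exact (hx1 z).mp hz
      · intro hy; exact ⟨x⁻¹ * y * x, (hx1 _).mpr (by simpa [mul_assoc] using hy), by simp [MulAut.conj_apply, mul_assoc]⟩
    have hQ' : Q.map (MulAut.conj x).toMonoidHom = Q := by
      ext y; constructor
      · rintro ⟨z, hz, rfl⟩; exact (hx2 z).mp hz
      · intro hy; exact ⟨x⁻¹ * y * x, (hx2 _).mpr (by simpa [mul_assoc] using hy), by simp [MulAut.conj_apply, mul_assoc]⟩
    have hs : (J ⊔ Q).map (MulAut.conj x).toMonoidHom = J ⊔ Q := by rw [Subgroup.map_sup, hJ, hQ']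
    intro y
    constructor
    · intro hy
      have : MulAut.conj x y ∈ (J ⊔ Q).map (MulAut.conj x).toMonoidHom := ⟨y, hy, rfl⟩
      rw [hs] at this; exact this
    · intro hy
      rw [← hs] at hy
      obtain ⟨z, hz, hzy⟩ := hy
      have : z = y := (MulAut.conj x).injective hzy
      rwa [← this]⟩
  have hle : P ⊔ (J ⊔ Q) ≤ P ⊔ J ⊔ Q := by rw [sup_assoc]
  refine ⟨h1, h2.trans hN, fun x => hN (h3 x), χ.comp (Subgroup.inclusion hle), restrict_mem F hχ hle, ?_, ?_⟩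
  · intro x
    have h8 := h7 (Subgroup.inclusion le_sup_left x)
    rw [← h5 x, ← h8]; rfl
  · have hfin : Finite ↥(J ⊔ Q) := finite_of_le (sup_le (le_sup_right.trans (hom_le F hψ)) hQ.1)
    have hJS : J ≤ S := le_sup_right.trans (hom_le F hψ)
    have hall : ∀ x : ↥(P ⊔ (J ⊔ Q)), (x : Ω) ∈ J ⊔ Q → (χ.comp (Subgroup.inclusion hle)) x ∈ J ⊔ Q := by
      have h9 : ∀ x (hx : x ∈ P ⊔ J ⊔ Q), x ∈ J → χ ⟨x, hx⟩ ∈ J := by
        intro x hx hxJ
        have h10 : χ ⟨x, hx⟩ = ψ ⟨x, le_sup_right (α := Subgroup Ω) hxJ⟩ := h7 ⟨x, le_sup_right (α := Subgroup Ω) hxJ⟩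
        rw [h10]
        have h11 : ψ ⟨x, le_sup_right (α := Subgroup Ω) hxJ⟩ ∈ (J.subgroupOf (P ⊔ J)).map ψ := ⟨⟨x, le_sup_right (α := Subgroup Ω) hxJ⟩, hxJ, rfl⟩
        rwa [h6] at h11
      have h9' : ∀ x (hx : x ∈ P ⊔ J ⊔ Q), x ∈ Q → χ ⟨x, hx⟩ ∈ Q := by
        intro x hx hxQ
        have h10 : χ ⟨x, hx⟩ = κ ⟨x, hxQ⟩ := hκ ⟨x, hxQ⟩
        rw [h10]; exact (κ ⟨x, hxQ⟩).2
      intro x hx
      have hle2 : J ⊔ Q ≤ P ⊔ J ⊔ Q := sup_le (le_sup_right.trans le_sup_left) le_sup_right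
      have hcomap : J ⊔ Q ≤ (((J ⊔ Q).comap χ).map (P ⊔ J ⊔ Q).subtype) := by
        refine sup_le ?_ ?_
        · intro y hy
          exact ⟨⟨y, hle2 (le_sup_left (α := Subgroup Ω) hy)⟩, le_sup_left (α := Subgroup Ω) (h9 _ _ hy), rfl⟩
        · intro y hy
          exact ⟨⟨y, hle2 (le_sup_right (α := Subgroup Ω) hy)⟩, le_sup_right (α := Subgroup Ω) (h9' _ _ hy), rfl⟩
      obtain ⟨y, hy, hyx⟩ := hcomap hx
      have : Subgroup.inclusion hle x = y := Subtype.ext hyx.symm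
      change χ (Subgroup.inclusion hle x) ∈ _
      rw [this]; exact hy
    have hinj : Function.Injective (χ.comp (Subgroup.inclusion hle)) := F.injective_of_mem (restrict_mem F hχ hle)
    apply Subgroup.eq_of_le_of_card_ge
    · rintro _ ⟨x, hx, rfl⟩; exact hall x hx
    · rw [Subgroup.card_map_of_injective hinj, card_subgroupOf_of_le le_sup_right]

end

/-- the property proved by induction. -/
def GJ (p : ℕ) [Fact p.Prime] (Ω : Type u) [Group Ω] (S : Subgroup Ω) (F : FusionSystem S) : Prop :=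
  IsPGroup p S → F.IsSaturated p → ∀ E : FusionSystem S,
    (∀ P : Subgroup Ω, F.centralizerHom (Vp p S) P ⊆ E.Hom P) → LocIn F E ((wJ.{u} p).W S) → F ≤ E

section
variable {Ω : Type u} [Group Ω] {S : Subgroup Ω} [Finite S] {F : FusionSystem S} {p : ℕ} [Fact p.Prime]

/-- the local step. -/
theorem gj_loc (hS : IsPGroup p S) (hF : F.IsSaturated p) (E : FusionSystem S)
    (hE : ∀ P : Subgroup Ω, F.centralizerHom (Vp p S) P ⊆ E.Hom P) {R : Subgroup Ω} (hR : F.IsFullyNormalized R)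
    {L : FusionSystem (normalizerIn S R)} (hL : F.IsNormalizerSystem R L) (hind : GJ p Ω (normalizerIn S R) L)
    (hloc : ∀ Y : Subgroup Ω, L.normalizerHom ((wJ.{u} p).W (normalizerIn S R)) Y ⊆ E.Hom Y) : LocIn F E R := by
  have hNS : normalizerIn S R ≤ S := inf_le_left
  have hsub : L.IsSubsystemOf F := fun P φ hφ => by rw [hL P] at hφ; exact hφ.1
  have hZ : S ⊓ Subgroup.centralizer (S : Set Ω) ≤ normalizerIn S R := by
    intro z hz
    obtain ⟨hzS, hzc⟩ := Subgroup.mem_inf.mp hz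
    refine Subgroup.mem_inf.mpr ⟨hzS, ?_⟩
    rw [Subgroup.mem_normalizer_iff]
    intro x
    have hR1 : R ≤ S := hR.1
    constructor
    · intro hx
      have h1 := Subgroup.mem_centralizer_iff.mp hzc x (hR1 hx)
      rw [← h1, mul_assoc, mul_inv_cancel, mul_one]; exact hx
    · intro hx
      have h1 := Subgroup.mem_centralizer_iff.mp hzc _ (hR1 hx)
      have h2 : z * x * z⁻¹ = x := by
        have h3 : z * x * z⁻¹ * z = z * (z * x * z⁻¹) := h1
        have h4 : z * x = z * (z * x * z⁻¹) := by rw [← h3]; group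
        exact (mul_left_cancel h4).symm
      rwa [h2] at hx
  have h1 : L ≤ restrictSystem E (normalizerIn S R) hNS := by
    refine hind (hS.to_le hNS) (normalizerSystem_saturated hS hF hR hL) _ ?_ ?_
    · intro P φ hφ
      obtain ⟨h2, h3, h4, ψ, hψ, h5, h6⟩ := hφ
      refine ⟨hE P ?_, (L.le_of_mem h2).1, (L.le_of_mem h2).2⟩
      exact mem_centralizerHom_of Vp_le (hsub _ hψ) le_sup_left ((Vp_mono hNS hZ).trans le_sup_right) h5
        (fun x => h6 ⟨x, Vp_mono hNS hZ x.2⟩)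
    · intro Y φ hφ
      exact ⟨hloc Y hφ, (L.le_of_mem hφ.1).1, (L.le_of_mem hφ.1).2⟩
  intro Y φ hφ
  rw [← hL Y] at hφ
  exact (h1 Y hφ).1

theorem gj_normal (hS : IsPGroup p S) (hF : F.IsSaturated p) (E : FusionSystem S)
    (IH : ∀ (Ω' : Type u) [Group Ω'] (S' : Subgroup Ω') [Finite S'] (F' : FusionSystem S'), Smaller F' F → GJ p Ω' S' F')
    (hE : ∀ P : Subgroup Ω, F.centralizerHom (Vp p S) P ⊆ E.Hom P) (hJ : LocIn F E ((wJ.{u} p).W S)) {X : Subgroup Ω} (hX : X ≤ S)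
    (hXn : S ≤ Subgroup.normalizer (X : Set Ω)) (hXF : ¬ F.IsNormal X) : LocIn F E X := by
  obtain ⟨L, hL⟩ := exists_normalizerSystem F hX
  have hsub : L.IsSubsystemOf F := fun P φ hφ => by rw [hL P] at hφ; exact hφ.1
  have hsm : Smaller L F := smaller_of_sub hsub (fun h => hXF (normal_of_normalizerHom hX fun P φ hφ => by
      rw [← hL P]; exact h P hφ))
  have hNeq : normalizerIn S X = S := inf_eq_left.mpr hXn
  refine gj_loc hS hF E hE (fullyNormalized_of_le_normalizer hX hXn) hL (IH _ _ L hsm) ?_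
  intro Y φ hφ
  apply hJ Y
  obtain ⟨h2, h3, h4, ψ, hψ, h5, h6⟩ := hφ
  rw [hNeq] at h3 h4
  refine ⟨hsub _ h2, h3, h4, ?_⟩
  have key : ∀ T : Subgroup Ω, T = S → ∀ ψ : ↥(Y ⊔ (wJ.{u} p).W T) →* Ω, ψ ∈ F.Hom _ →
      (∀ x : Y, ψ (Subgroup.inclusion le_sup_left x) = φ x) → (((wJ.{u} p).W T).subgroupOf (Y ⊔ (wJ.{u} p).W T)).map ψ = (wJ.{u} p).W T →
      ∃ ψ ∈ F.Hom (Y ⊔ (wJ.{u} p).W S), (∀ x : Y, ψ (Subgroup.inclusion le_sup_left x) = φ x) ∧
      (((wJ.{u} p).W S).subgroupOf (Y ⊔ (wJ.{u} p).W S)).map ψ = (wJ.{u} p).W S := by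
    rintro T rfl ψ h1 h2 h3; exact ⟨ψ, h1, h2, h3⟩
  exact key _ hNeq ψ (hsub _ hψ) h5 h6

theorem conj_lt_of_normal {Q R R' : Subgroup Ω} (hQ : F.IsNormal Q) (h : F.IsConj R R') (hQR : Q ≤ R ∧ Q ≠ R) : Q ≤ R' ∧ Q ≠ R' := by
  have hQsc := stronglyClosed_of_normal hQ
  obtain ⟨e, he⟩ := isConj_iff.mp h
  have hRS : R ≤ S := he.le_left
  haveI : Finite R := finite_of_le hRS
  haveI : Finite R' := finite_of_le he.le_right
  have h1 : ∀ x : R', (x : Ω) ∈ Q → ((e.symm x : R) : Ω) ∈ Q := fun x hx => StronglyClosed.mem hQsc he.symm hx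
  have h2 : ∀ x : R, (x : Ω) ∈ Q → ((e x : R') : Ω) ∈ Q := fun x hx => StronglyClosed.mem hQsc he hx
  have hle : Q ≤ R' := by
    have h3 : (Q.subgroupOf R).map (R'.subtype.comp e.toMonoidHom) = Q := by
      haveI : Finite Q := finite_of_le hQ.1
      apply Subgroup.eq_of_le_of_card_ge
      · rintro _ ⟨x, hx, rfl⟩; exact h2 x hx
      · have hinj : Function.Injective (R'.subtype.comp e.toMonoidHom) := fun a b h => e.injective (Subtype.ext h)
        rw [Subgroup.card_map_of_injective hinj, card_subgroupOf_of_le hQR.1]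
    intro x hx
    rw [← h3] at hx
    obtain ⟨y, -, rfl⟩ := hx
    exact (e y).2
  refine ⟨hle, fun h4 => hQR.2 ?_⟩
  apply Subgroup.eq_of_le_of_card_ge hQR.1
  rw [h4, isConj_card h]

/-- Case `C_S(Q) ≤ Q`. -/
theorem gj_constrained (hS : IsPGroup p S) (hF : F.IsSaturated p) (E : FusionSystem S)
    (IH : ∀ (Ω' : Type u) [Group Ω'] (S' : Subgroup Ω') [Finite S'] (F' : FusionSystem S'), Smaller F' F → GJ p Ω' S' F')
    (hE : ∀ P : Subgroup Ω, F.centralizerHom (Vp p S) P ⊆ E.Hom P) (hJ : LocIn F E ((wJ.{u} p).W S))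
    (hc : centralizerIn S F.core ≤ F.core) : F ≤ E := by
  have hQ := core_normal F
  have hQS : F.core ≤ S := hQ.1
  have hQsc := stronglyClosed_of_normal hQ
  have hQn := StronglyClosed.le_normalizer hQsc
  set Q := F.core with hQdef
  haveI : Finite Q := finite_of_le hQS
  -- `Z(Q)`
  have hZn : F.IsNormal (Q ⊓ Subgroup.centralizer (Q : Set Ω)) := by
    refine normal_of_characteristic hQ inf_le_left ?_
    rw [Subgroup.characteristic_iff_comap_eq]
    intro φ
    ext x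
    rw [Subgroup.mem_comap, Subgroup.mem_subgroupOf, Subgroup.mem_subgroupOf]
    constructor
    · rintro ⟨-, h⟩
      refine ⟨x.2, ?_⟩
      change (x : Ω) ∈ Subgroup.centralizer (Q : Set Ω)
      rw [Subgroup.mem_centralizer_iff]
      intro y hy
      have h1 := Subgroup.mem_centralizer_iff.mp (show _ ∈ Subgroup.centralizer (Q : Set Ω) from h) (φ ⟨y, hy⟩) (φ ⟨y, hy⟩).2
      have h2 : φ (⟨y, hy⟩ * x) = φ (x * ⟨y, hy⟩) := by rw [map_mul, map_mul]; exact Subtype.ext h1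
      exact congrArg Subtype.val (φ.injective h2)
    · rintro ⟨-, h⟩
      refine ⟨(φ x).2, ?_⟩
      change ((φ x : Q) : Ω) ∈ Subgroup.centralizer (Q : Set Ω)
      rw [Subgroup.mem_centralizer_iff]
      intro y hy
      have h1 := Subgroup.mem_centralizer_iff.mp (show _ ∈ Subgroup.centralizer (Q : Set Ω) from h) (φ.symm ⟨y, hy⟩) (φ.symm ⟨y, hy⟩).2
      have h2 : φ (φ.symm ⟨y, hy⟩ * x) = φ (x * φ.symm ⟨y, hy⟩) := congrArg φ (Subtype.ext h1)
      rw [map_mul, map_mul, φ.apply_symm_apply] at h2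
      exact congrArg Subtype.val h2
  set W := Q ⊓ Subgroup.centralizer (Q : Set Ω) with hWdef
  have hWsc := stronglyClosed_of_normal hZn
  have hWn := StronglyClosed.le_normalizer hWsc
  have hWQ : W ≤ Q := inf_le_left
  have hWc : ∀ w ∈ W, ∀ q ∈ Q, q * w = w * q := fun w hw q hq => Subgroup.mem_centralizer_iff.mp (Subgroup.mem_inf.mp hw).2 q hq
  -- the subgroup `T₁`
  let T₁ : Subgroup Ω := S ⊓ Subgroup.centralizer {y | ∃ w ∈ W, y = w ^ p}
  have hT1mem : ∀ s : Ω, s ∈ T₁ ↔ s ∈ S ∧ ∀ w ∈ W, s * w ^ p = w ^ p * s := by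
    intro s
    constructor
    · intro hs
      obtain ⟨h1, h2⟩ := Subgroup.mem_inf.mp hs
      exact ⟨h1, fun w hw => (Subgroup.mem_centralizer_iff.mp h2 _ ⟨w, hw, rfl⟩).symm⟩
    · rintro ⟨h1, h2⟩
      refine Subgroup.mem_inf.mpr ⟨h1, Subgroup.mem_centralizer_iff.mpr ?_⟩
      rintro _ ⟨w, hw, rfl⟩
      exact (h2 w hw).symm
  have hQT1 : Q ≤ T₁ := fun q hq => (hT1mem q).mpr ⟨hQS hq, fun w hw => hWc _ (W.pow_mem hw p) q hq⟩
  have hT1S : T₁ ≤ S := inf_le_left
  have hWconj : ∀ s ∈ S, ∀ w ∈ W, s * w * s⁻¹ ∈ W := fun s hs w hw => (Subgroup.mem_normalizer_iff.mp (hWn hs) w).mp hw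
  have hT1n : S ≤ Subgroup.normalizer (T₁ : Set Ω) := by
    intro g hg
    haveI : Finite T₁ := finite_of_le hT1S
    apply mem_normalizer_of_finite
    intro s hs
    rw [hT1mem] at hs ⊢
    refine ⟨S.mul_mem (S.mul_mem hg hs.1) (S.inv_mem hg), fun w hw => ?_⟩
    have h1 := hs.2 (g⁻¹ * w * g) (by have := hWconj g⁻¹ (S.inv_mem hg) w hw; rwa [inv_inv] at this)
    have h2 : (g⁻¹ * w * g) ^ p = g⁻¹ * w ^ p * g := by
      have := conj_pow (i := p) (a := g⁻¹) (b := w); rwa [inv_inv] at this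
    rw [h2] at h1
    calc g * s * g⁻¹ * w ^ p = g * (s * (g⁻¹ * w ^ p * g)) * g⁻¹ := by group
      _ = g * ((g⁻¹ * w ^ p * g) * s) * g⁻¹ := by rw [h1]
      _ = w ^ p * (g * s * g⁻¹) := by group
  have hZS : ∀ z ∈ S ⊓ Subgroup.centralizer (S : Set Ω), z ∈ W := by
    intro z hz
    obtain ⟨h1, h2⟩ := Subgroup.mem_inf.mp hz
    have h3 : z ∈ Q := hc (Subgroup.mem_inf.mpr ⟨h1, Subgroup.centralizer_le hQS h2⟩)
    exact Subgroup.mem_inf.mpr ⟨h3, Subgroup.centralizer_le hQS h2⟩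
  by_cases hTQ : T₁ = Q
  · -- `J(S) ≤ Q`
    have hJQ : (wJ.{u} p).W S ≤ Q := by
      rw [wJ_eq]
      rintro _ ⟨x, hx, rfl⟩
      have h1 : thompsonSubgroupA S ≤ Q.subgroupOf S := by
        refine sSup_le fun A hA => ?_
        intro a ha
        rw [Subgroup.mem_subgroupOf, ← hTQ, hT1mem]
        refine ⟨a.2, fun w hw => ?_⟩
        haveI : (W.subgroupOf S).Normal := ⟨fun w hw g => hWconj g g.2 w hw⟩
        have h2 := thompson_agemo (P := S) (W := W.subgroupOf S) (p := p) hS (fun x hx y hy => Subtype.ext (hWc _ hy _ (hWQ hx)))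
          (fun s hs w hw => by
            apply Subtype.ext
            have h3 : (s : Ω) ∈ T₁ := (hT1mem s).mpr ⟨s.2, fun w hw => congrArg Subtype.val (hs ⟨w, hQS (hWQ hw)⟩ hw)⟩
            rw [hTQ] at h3
            exact hWc _ hw _ h3) hA a ha ⟨w ^ p, hQS (hWQ (W.pow_mem hw p))⟩ (W.pow_mem hw p)
        exact congrArg Subtype.val h2
      exact h1 hx
    have h2 := J_eq_of_le hQS hJQ
    have h3 : F.IsNormal ((wJ.{u} p).W S) := by
      rw [h2]
      exact normal_of_characteristic hQ ((wJ.{u} p).le Q) ((wJ.{u} p).char (hS.to_le hQS))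
    intro P φ hφ
    apply hJ P
    rw [normalizerHom_eq_of_normal h3]; exact hφ
  · have hloc1 : LocIn F E T₁ := by
      refine gj_normal hS hF E IH hE hJ hT1S hT1n fun h => hTQ (le_antisymm (le_core h) hQT1)
    refine essential_induction hS hF E fun R hR hbig => ?_
    rcases hR with rfl | hR
    · intro α hα
      rw [mem_autGroup _ le_rfl] at hα ⊢
      apply hJ
      exact mem_normalizerHom_of_ge ((wJ.{u} p).le R) (fun x hx => Subgroup.mem_inf.mpr ⟨hx, (wJ.{u} p).normalizer_self hS hx⟩) hα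
        (fun x hx => ((wJ.{u} p).iso R R hS α x).mp hx)
    · have hRS : R ≤ S := hR.1.1
      obtain ⟨hRc, hRr⟩ := essential_centric_radical hS hR
      have hQR : Q ≤ R := normal_le_centric_radical hS hQ hRc hRr
      haveI : Finite R := finite_of_le hRS
      have hWα : ∀ α ∈ F.autGroup R, ∀ x : R, (x : Ω) ∈ W → ((α x : R) : Ω) ∈ W := fun α hα x hx =>
        StronglyClosed.aut_mem hWsc hRS hα hx
      by_cases hT1R : T₁ ≤ R
      · intro α hα
        rw [mem_autGroup _ hRS] at *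
        apply hloc1
        have hαg : α ∈ F.autGroup R := (mem_autGroup _ hRS).mpr hα
        refine mem_normalizerHom_of_ge hT1R (fun x hx => Subgroup.mem_inf.mpr ⟨hRS hx, hT1n (hRS hx)⟩) hα (fun x hx => ?_)
        change ((α x : R) : Ω) ∈ T₁
        rw [hT1mem] at hx ⊢
        refine ⟨hRS (α x).2, fun w hw => ?_⟩
        have h1 := hWα α⁻¹ ((F.autGroup R).inv_mem hαg) ⟨w, hQR (hWQ hw)⟩ hw
        have h2 := hx.2 _ h1
        have h3 : x * (α⁻¹ ⟨w, hQR (hWQ hw)⟩) ^ p = (α⁻¹ ⟨w, hQR (hWQ hw)⟩) ^ p * x := Subtype.ext h2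
        have h4 := congrArg α h3
        rw [map_mul, map_mul, map_pow] at h4
        have h5 : α (α⁻¹ ⟨w, hQR (hWQ hw)⟩) = ⟨w, hQR (hWQ hw)⟩ := α.apply_symm_apply _
        rw [h5] at h4
        exact congrArg Subtype.val h4
      · obtain ⟨a, haT, haN, haR⟩ := exists_mem_of_not_le hS hRS hT1S hT1n hT1R
        let K : Subgroup (MulAut R) := F.autGroup R ⊓
          { carrier := {α | ∀ w : R, (w : Ω) ∈ W → α (w ^ p) = w ^ p}
            mul_mem' := fun {α β} hα hβ w hw => by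
              rw [MulAut.mul_apply, hβ w hw, hα w hw]
            one_mem' := fun w _ => rfl
            inv_mem' := fun {α} hα w hw => by
              rw [MulAut.inv_apply, MulEquiv.symm_apply_eq, hα w hw] }
        have hKmem : ∀ α : MulAut R, α ∈ K ↔ α ∈ F.autGroup R ∧ ∀ w : R, (w : Ω) ∈ W → α (w ^ p) = w ^ p := fun α => Iff.rfl
        have hRfn : F.IsFullyNormalized R := hR.2.1
        refine aut_le_of_normal hS hF hRfn (hRc.2 R (isConj_refl hRS)) E hbig K inf_le_left ?_ ?_ (hT1S haT) haN haR ?_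
        · intro α hα κ hκ
          rw [hKmem] at hκ ⊢
          refine ⟨(F.autGroup R).mul_mem ((F.autGroup R).mul_mem hα hκ.1) ((F.autGroup R).inv_mem hα), fun w hw => ?_⟩
          have h1 := hWα α⁻¹ ((F.autGroup R).inv_mem hα) w hw
          have h2 := hκ.2 _ h1
          rw [MulAut.mul_apply, MulAut.mul_apply, map_pow, h2, ← map_pow]
          exact α.apply_symm_apply _
        · intro α hα
          rw [hKmem] at hα
          have h1 := hα.1
          rw [mem_autGroup _ hRS] at h1 ⊢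
          apply hE
          have hVR : Vp p S ≤ R := Vp_le.trans (fun z hz => hQR (hWQ (hZS z hz)))
          refine mem_centralizerHom_of Vp_le h1 le_rfl hVR (fun x => rfl) (fun x => ?_)
          have h2 : ∀ y : R, (y : Ω) ∈ Vp p S → α y = y := by
            intro y hy
            have h3 : Vp p S ≤ (((MulEquiv.toMonoidHom α).eqLocus (MonoidHom.id R)).map R.subtype) := by
              refine (Subgroup.closure_le _).mpr ?_
              rintro _ ⟨z, hz, rfl⟩
              refine ⟨⟨z ^ (p ^ 1), R.pow_mem (hQR (hWQ (hZS z hz))) _⟩, ?_, rfl⟩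
              have h4 := hα.2 ⟨z, hQR (hWQ (hZS z hz))⟩ (hZS z hz)
              change α ⟨z ^ (p ^ 1), _⟩ = ⟨z ^ (p ^ 1), _⟩
              have h5 : (⟨z ^ (p ^ 1), R.pow_mem (hQR (hWQ (hZS z hz))) _⟩ : R) = (⟨z, hQR (hWQ (hZS z hz))⟩ : R) ^ p :=
                Subtype.ext (by rw [pow_one]; rfl)
              rw [h5, h4]
            obtain ⟨y', hy', hyy⟩ := h3 hy
            have h6 : y' = y := Subtype.ext hyy
            rw [h6] at hy'
            exact hy'
          exact congrArg Subtype.val (h2 ⟨x, hVR x.2⟩ x.2)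
        · rw [hKmem]
          refine ⟨autInducedBy_le_autGroup F hRS ((mem_autInducedBy).mpr ⟨a, hT1S haT, fun x => rfl⟩), fun w hw => ?_⟩
          apply Subtype.ext
          have h1 := ((hT1mem a).mp haT).2 w hw
          change a * (w : Ω) ^ p * a⁻¹ = (w : Ω) ^ p
          rw [h1]; group

/-- Case `C_S(Q) ≰ Q`. -/
theorem gj_other (hS : IsPGroup p S) (hF : F.IsSaturated p) (E : FusionSystem S)
    (IH : ∀ (Ω' : Type u) [Group Ω'] (S' : Subgroup Ω') [Finite S'] (F' : FusionSystem S'), Smaller F' F → GJ p Ω' S' F')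
    (hE : ∀ P : Subgroup Ω, F.centralizerHom (Vp p S) P ⊆ E.Hom P) (hJ : LocIn F E ((wJ.{u} p).W S))
    (hc : ¬ centralizerIn S F.core ≤ F.core) : F ≤ E := by
  have hQ := core_normal F
  have hQS : F.core ≤ S := hQ.1
  have hQsc := stronglyClosed_of_normal hQ
  have hQn := StronglyClosed.le_normalizer hQsc
  have hcore : ∀ R : Subgroup Ω, F.IsNormal R → R ≤ F.core := fun R hR => le_core hR
  generalize F.core = Q at *
  haveI : Finite Q := finite_of_le hQS
  have hCS : centralizerIn S Q ≤ S := inf_le_left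
  have hCn : S ≤ Subgroup.normalizer (centralizerIn S Q : Set Ω) := by
    intro g hg
    haveI : Finite ↥(centralizerIn S Q) := finite_of_le hCS
    apply mem_normalizer_of_finite
    intro x hx
    obtain ⟨hx1, hx2⟩ := Subgroup.mem_inf.mp hx
    refine Subgroup.mem_inf.mpr ⟨S.mul_mem (S.mul_mem hg hx1) (S.inv_mem hg), Subgroup.mem_centralizer_iff.mpr fun y hy => ?_⟩
    have h1 : g⁻¹ * y * g ∈ Q := by
      have := (Subgroup.mem_normalizer_iff.mp (hQn (S.inv_mem hg)) y).mp hy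
      rwa [inv_inv] at this
    have h2 := Subgroup.mem_centralizer_iff.mp hx2 _ h1
    calc y * (g * x * g⁻¹) = g * ((g⁻¹ * y * g) * x) * g⁻¹ := by group
      _ = g * (x * (g⁻¹ * y * g)) * g⁻¹ := by rw [h2]
      _ = g * x * g⁻¹ * y := by group
  -- `J(N) ≤ Q` forces `C_N(Q) ≤ Q`
  have hJN : ∀ T : Subgroup Ω, T ≤ S → (wJ.{u} p).W T ≤ Q → ∀ x ∈ centralizerIn S Q, x ∈ T → x ∈ Q := by
    intro T hT hJT x hx hxT
    haveI : Finite T := finite_of_le hT
    apply hJT
    apply mem_J_of_comm hxT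
    intro y hy
    exact Subgroup.mem_centralizer_iff.mp (Subgroup.mem_inf.mp hx).2 y (hJT hy)
  have hW1 : ∀ R : Subgroup Ω, R ≤ S → (Q ≤ R ∧ Q ≠ R) → Q ≤ (wJ.{u} p).W (normalizerIn S R) ⊔ Q ∧ Q ≠ (wJ.{u} p).W (normalizerIn S R) ⊔ Q := by
    intro R hRS hQR
    refine ⟨le_sup_right, fun h => hc ?_⟩
    have hJQ : (wJ.{u} p).W (normalizerIn S R) ≤ Q := by rw [h]; exact le_sup_left
    have h1 := hJN _ inf_le_left hJQ
    have h2 : centralizerIn S Q ≤ R := by
      by_contra h3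
      obtain ⟨y, hy, hyN, hyR⟩ := exists_mem_of_not_le hS hRS hCS hCn h3
      exact hyR (hQR.1 (h1 y hy (Subgroup.mem_inf.mpr ⟨hCS hy, hyN⟩)))
    intro x hx
    exact h1 x hx (Subgroup.mem_inf.mpr ⟨hCS hx, Subgroup.le_normalizer (h2 hx)⟩)
  refine wpi' hS hF E (fun R => Q ≤ R ∧ Q ≠ R) (fun T => (wJ.{u} p).W T ⊔ Q) (fun R R' h h' => conj_lt_of_normal hQ h h') ?_ ?_ ?_ ?_ ?_ ?_
  · intro U hU
    have h1 : Q ≤ U := by
      rcases hU with rfl | hU
      · exact hQS
      · obtain ⟨h1, h2⟩ := essential_centric_radical hS hU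
        exact normal_le_centric_radical hS hQ h1 h2
    refine ⟨h1, fun h2 => hc ?_⟩
    rcases hU with rfl | hU
    · rw [h2]; exact inf_le_left
    · have h3 := hU.1.2 U (isConj_refl hU.1.1)
      rw [← h2] at h3; exact h3
  · intro R hR hCR
    exact hW1 R hR.1 hCR
  · intro T hT
    exact sup_le (((wJ.{u} p).le T).trans hT) hQS
  · intro T hT
    intro x hx
    have h1 := (wJ.{u} p).normalizer hS T hT hx
    obtain ⟨hxS, hx1⟩ := Subgroup.mem_inf.mp h1
    refine Subgroup.mem_inf.mpr ⟨hxS, ?_⟩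
    haveI : Finite ↥((wJ.{u} p).W T ⊔ Q) := finite_of_le (sup_le (((wJ.{u} p).le T).trans hT) hQS)
    apply mem_normalizer_of_finite
    intro y hy
    have h2 : (wJ.{u} p).W T ⊔ Q ≤ ((wJ.{u} p).W T ⊔ Q).comap (MulAut.conj x).toMonoidHom := by
      refine sup_le ?_ ?_
      · intro z hz
        exact le_sup_left (α := Subgroup Ω) ((Subgroup.mem_normalizer_iff.mp hx1 z).mp hz)
      · intro z hz
        exact le_sup_right (α := Subgroup Ω) ((Subgroup.mem_normalizer_iff.mp (hQn hxS) z).mp hz)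
    exact h2 hy
  · -- `J(S) ⊔ Q`
    have hle : (wJ.{u} p).W S ⊔ Q ≤ S := sup_le ((wJ.{u} p).le S) hQS
    refine gj_normal hS hF E IH hE hJ hle ?_ ?_
    · intro x hx
      haveI : Finite ↥((wJ.{u} p).W S ⊔ Q) := finite_of_le hle
      apply mem_normalizer_of_finite
      intro y hy
      have h2 : (wJ.{u} p).W S ⊔ Q ≤ ((wJ.{u} p).W S ⊔ Q).comap (MulAut.conj x).toMonoidHom := by
        refine sup_le ?_ ?_
        · intro z hz
          exact le_sup_left (α := Subgroup Ω) ((Subgroup.mem_normalizer_iff.mp ((wJ.{u} p).normalizer_self hS hx) z).mp hz)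
        · intro z hz
          exact le_sup_right (α := Subgroup Ω) ((Subgroup.mem_normalizer_iff.mp (hQn hx) z).mp hz)
      exact h2 hy
    · intro h
      apply hc
      have hJQ : (wJ.{u} p).W S ≤ Q := le_sup_left.trans (hcore _ h)
      intro x hx
      exact hJN S le_rfl hJQ x hx (hCS hx)
  · intro R hCR hR hloc
    obtain ⟨L, hL⟩ := exists_normalizerSystem F hR.1
    have hRF : ¬ F.IsNormal R := fun h => hCR.2 (le_antisymm hCR.1 (hcore _ h))
    have hsub : L.IsSubsystemOf F := fun P φ hφ => by rw [hL P] at hφ; exact hφ.1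
    have hsm : Smaller L F := smaller_of_sub hsub (fun h => hRF (normal_of_normalizerHom hR.1 fun P φ hφ => by
        rw [← hL P]; exact h P hφ))
    refine gj_loc hS hF E hE hR hL (IH _ _ L hsm) ?_
    intro Y φ hφ
    apply hloc Y
    apply normalizerHom_sup_normal hQ
    obtain ⟨h2, h3, h4, ψ, hψ, h5, h6⟩ := hφ
    have hle : normalizerIn (normalizerIn S R) ((wJ.{u} p).W (normalizerIn S R)) ≤ normalizerIn S ((wJ.{u} p).W (normalizerIn S R)) :=
      inf_le_inf_right _ inf_le_left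
    exact ⟨hsub _ h2, h3.trans hle, fun x => hle (h4 x), ψ, hsub _ hψ, h5, h6⟩

end

theorem gj (p : ℕ) [Fact p.Prime] : ∀ (Ω : Type u) [Group Ω] (S : Subgroup Ω) [Finite S] (F : FusionSystem S), GJ p Ω S F := by
  refine fusion_induction _ ?_
  intro Ω _ S _ F IH hS hF E hE hJ
  by_cases hc : centralizerIn S F.core ≤ F.core
  · exact gj_constrained hS hF E (fun Ω' _ S' _ F' h => IH Ω' S' F' h) hE hJ hc
  · exact gj_other hS hF E (fun Ω' _ S' _ F' h => IH Ω' S' F' h) hE hJ hc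

end Cfsg.Agent.L0.Fus
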