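import Cfsg.Agent.L0.Fus.PIdx5
import Cfsg.Agent.L0.Fus.App
set_option autoImplicit false
/-! Subsystems of `p`-power index: groups, and residual limits. -/

open Pointwise
open scoped commutatorElement

namespace Cfsg.Agent.L0.Fus

open Cfsg.Agent.L0 Cfsg.FusionSystem

universe u v w

section Grp
variable {G : Type*} [Group G] [Finite G] {p : ℕ} [Fact p.Prime]

/-- the system of a normal subgroup containing `O^p(G)` has `p`-power index. -/
theorem fso_pPowerIndex (S : Sylow p G) (K : Subgroup G) [K.Normal] (hK : pResidual p G ≤ K) (T : Subgroup G) (hT : T = (S : Subgroup G) ⊓ K)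
    (hTK : T ≤ K) : (fusionSystemOfSubgroup K T hTK).IsSaturated p ∧ (fusionSystemOfSubgroup K T hTK).HasPPowerIndexIn (groupFusionSystem (S : Subgroup G)) p := by
  subst hT
  have hR : IsSylowIn p ((S : Subgroup G) ⊓ K) K :=
    IsSylowIn.inf_normal (isSylowIn_of_sylow S) le_top (by rw [Subgroup.normalizer_eq_top])
  refine ⟨fso_saturated hR, ?_, ?_, ?_⟩
  · rintro P φ ⟨h1, h2, g, hg, h3⟩
    exact ⟨h1.trans inf_le_left, fun x => (h2 x).1, g, h3⟩
  · rw [hyperfocal_group]
    exact inf_le_inf_left _ hK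
  · intro P hP
    have hPS : P ≤ S := hP.trans inf_le_left
    let N := Subgroup.normalizer (P : Set G)
    have hA : (groupFusionSystem (S : Subgroup G)).autGroup P = autInducedBy ⊤ P := by
      rw [groupFusionSystem_eq]; exact autGroup_fso hPS
    have hmem : ∀ g : N, P.normalizerMonoidHom g ∈ (groupFusionSystem (S : Subgroup G)).autGroup P := by
      intro g; rw [hA]; exact mem_autInducedBy.mpr ⟨g, trivial, fun x => rfl⟩
    let f : N →* (groupFusionSystem (S : Subgroup G)).autGroup P := P.normalizerMonoidHom.codRestrict _ hmem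
    have hf : Function.Surjective f := by
      rintro ⟨β, hβ⟩
      have hβ' := hβ
      rw [hA, mem_autInducedBy] at hβ'
      obtain ⟨g, -, hg⟩ := hβ'
      refine ⟨⟨g, mem_normalizer_of_induced hg⟩, ?_⟩
      apply Subtype.ext
      ext x
      exact (hg x).symm
    rintro _ ⟨α, hα, rfl⟩
    have h1 := map_pResidual_eq (p := p) f hf
    rw [← h1] at hα
    obtain ⟨g, hg, rfl⟩ := hα
    have hgr : (g : G) ∈ K := hK (pResidual_map_le N.subtype ⟨g, hg, rfl⟩)
    refine mem_autGroup_of_iso _ ⟨hP, fun x => ?_, g, hgr, fun x => rfl⟩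
    exact hP (((f g : MulAut P)) x).2

end Grp

theorem exists_fixed_mul {P : Type*} [Group P] [Finite P] {p : ℕ} [Fact p.Prime] (hP : IsPGroup p P) (α : MulAut P) (hα : (orderOf α).Coprime p)
    (M : Subgroup P) (hM : ∀ x ∈ M, α x ∈ M) (h : ∀ (k : ℕ) (x : P), x⁻¹ * (α ^ k) x ∈ M) (x : P) :
    ∃ m ∈ M, ∃ c : P, α c = c ∧ x = m * c := by
  classical
  let A : Subgroup (MulAut P) := Subgroup.zpowers α
  haveI : Finite A := inferInstance
  let G := P ⋊[A.subtype] A
  haveI : Finite G := Finite.of_equiv _ SemidirectProduct.equivProd.symm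
  let i : P →* G := SemidirectProduct.inl
  let j : A →* G := SemidirectProduct.inr
  have hi : Function.Injective i := SemidirectProduct.inl_injective
  have hj : Function.Injective j := SemidirectProduct.inr_injective
  have hact : ∀ (a : A) (y : P), j a * i y * (j a)⁻¹ = i ((a : MulAut P) y) := by
    intro a y
    rw [← map_inv]
    exact (SemidirectProduct.inl_aut (φ := A.subtype) a y).symm
  have hpow : ∀ a : A, ∃ k : ℕ, (a : MulAut P) = α ^ k := by
    intro a
    obtain ⟨n, hn⟩ := (isOfFinOrder_of_finite α).mem_powers_iff_mem_zpowers.mpr a.2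
    exact ⟨n, hn.symm⟩
  have hMk : ∀ (k : ℕ), ∀ y ∈ M, (α ^ k) y ∈ M := by
    intro k
    induction k with
    | zero => intro y hy; exact hy
    | succ k ih => intro y hy; rw [pow_succ']; exact hM _ (ih y hy)
  have hAN : j.range ≤ Subgroup.normalizer (i.range : Set G) := by
    rintro _ ⟨a, rfl⟩
    refine mem_normalizer_of_finite ?_
    rintro _ ⟨y, rfl⟩
    rw [hact]; exact ⟨_, rfl⟩
  have hAM : j.range ≤ Subgroup.normalizer ((M.map i : Subgroup G) : Set G) := by
    rintro _ ⟨a, rfl⟩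
    refine mem_normalizer_of_finite ?_
    rintro _ ⟨y, hy, rfl⟩
    rw [hact]
    obtain ⟨k, hk⟩ := hpow a
    exact ⟨_, by rw [hk]; exact hMk k y hy, rfl⟩
  have hMN : M.map i ≤ i.range := by rintro _ ⟨y, _, rfl⟩; exact ⟨y, rfl⟩
  have hcop : (Nat.card j.range).Coprime (Nat.card i.range) := by
    rw [← Nat.card_congr (MonoidHom.ofInjective hj).toEquiv, ← Nat.card_congr (MonoidHom.ofInjective hi).toEquiv, Nat.card_zpowers]
    obtain ⟨n, hn⟩ := IsPGroup.iff_card.mp hP
    rw [hn]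
    exact hα.pow_right n
  have hsol : Group.IsSolvable j.range := by
    haveI : Group.IsSolvable A := by
      haveI : IsMulCommutative A := inferInstance
      infer_instance
    exact Group.isSolvable_of_surjective (f := j.rangeRestrict) j.rangeRestrict_surjective
  obtain ⟨m, hm, c, hc, hmc⟩ := exists_mul_centralizer_of_comm_mem hAN hAM hMN hcop (Or.inl hsol) (n := i x) ⟨x, rfl⟩ (by
    rintro _ ⟨a, rfl⟩
    have h1 : i x * j a * (i x)⁻¹ * (j a)⁻¹ = i x * (j a * i x⁻¹ * (j a)⁻¹) := by rw [map_inv i]; simp only [mul_assoc]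
    rw [h1, hact, ← map_mul]
    obtain ⟨k, hk⟩ := hpow a
    refine ⟨_, ?_, rfl⟩
    have h2 := h k x⁻¹
    rw [inv_inv] at h2
    rw [hk]; exact h2)
  obtain ⟨m', hm', rfl⟩ := hm
  obtain ⟨⟨c', rfl⟩, hc⟩ := hc
  refine ⟨m', hm', c', ?_, hi (by rw [map_mul]; exact hmc)⟩
  apply hi
  have h3 := hc (j ⟨α, Subgroup.mem_zpowers α⟩) ⟨_, rfl⟩
  have h4 := hact ⟨α, Subgroup.mem_zpowers α⟩ c'
  rw [h3, mul_inv_cancel_right] at h4
  exact h4.symm

variable {Ω : Type u} [Group Ω] {S : Subgroup Ω} {F : FusionSystem S} [Finite S] {p : ℕ} [Fact p.Prime]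

theorem hyp_eq_of_pPowerIndex (hS : IsPGroup p S) {T : Subgroup Ω} {E : FusionSystem T} (hE : E.HasPPowerIndexIn F p) :
    E.hyperfocalSubgroup p = F.hyperfocalSubgroup p := by
  have hTS : T ≤ S := hom_le F (hE.1 T (subtype_mem E le_rfl))
  haveI := finite_of_le hTS
  apply le_antisymm (hyp_mono hE.1)
  conv_lhs => unfold FusionSystem.hyperfocalSubgroup
  rw [Subgroup.closure_le]
  rintro _ ⟨P, α, x, hP, hα, rfl⟩
  haveI := finite_of_le hP
  haveI := finite_autGroup (S := S) hP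
  have key : ∀ α : F.autGroup P, (orderOf α).Coprime p → ∀ x : P, (x : Ω)⁻¹ * ((α : MulAut P) x : P) ∈ E.hyperfocalSubgroup p := by
    intro α hα x
    have hαI := (mem_autGroup F hP).mp α.2
    have hpowmem : ∀ (k : ℕ) (y : P), (y : Ω)⁻¹ * (((α : MulAut P) ^ k) y : P) ∈ T := by
      intro k y
      have h0 : α ∈ pResidual p (F.autGroup P) := Subgroup.subset_closure hα
      exact hE.2.1 (mem_hyperfocal F hP (α := α ^ k) (Subgroup.pow_mem _ h0 k) y)
    have hD : ∀ y : P, (y : Ω) ∈ P ⊓ T → (((α : MulAut P) y : P) : Ω) ∈ P ⊓ T := by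
      intro y hy
      refine ⟨((α : MulAut P) y).2, ?_⟩
      have h1 := T.mul_mem hy.2 (hpowmem 1 y)
      rw [pow_one, mul_inv_cancel_left] at h1
      exact h1
    obtain ⟨β, hβ, hβα, hβo⟩ := exists_res_inf hP inf_le_left hαI hD
    have hβc : (orderOf β).Coprime p := Nat.Coprime.coprime_dvd_left hβo (by rw [Subgroup.orderOf_coe]; exact hα)
    have hβE : β ∈ E.autGroup (P ⊓ T) := by
      refine hE.2.2 (P ⊓ T) inf_le_right ⟨⟨β, mem_autGroup_of_iso F hβ⟩, Subgroup.subset_closure ?_, rfl⟩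
      change (orderOf _).Coprime p
      rw [← Subgroup.orderOf_coe]; exact hβc
    obtain ⟨m, hm, c, hc, hmc⟩ := exists_fixed_mul (hS.to_le hP) (α : MulAut P) (by rw [Subgroup.orderOf_coe]; exact hα) ((P ⊓ T).subgroupOf P)
      (fun y hy => hD y hy) (fun (k : ℕ) (y : P) => ⟨(y⁻¹ * ((α : MulAut P) ^ k) y : P).2, hpowmem k y⟩) x⁻¹
    have hx : x⁻¹ * (α : MulAut P) x = (m⁻¹)⁻¹ * (α : MulAut P) m⁻¹ := by
      have h1 : x = c⁻¹ * m⁻¹ := by
        have h2 := congrArg (fun z => z⁻¹) hmc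
        simpa using h2
      rw [h1, map_mul, map_inv, hc]
      group
    have h3 : (m⁻¹ : P).1 ∈ P ⊓ T := ((P ⊓ T).subgroupOf P).inv_mem hm
    have h4 := mem_hyperfocal E inf_le_right (α := ⟨β, hβE⟩) (Subgroup.subset_closure (by
      change (orderOf _).Coprime p
      rw [← Subgroup.orderOf_coe]; exact hβc)) ⟨(m⁻¹ : P), h3⟩
    have h5 : (x : Ω)⁻¹ * ((α : MulAut P) x : P) = ((x⁻¹ * (α : MulAut P) x : P) : Ω) := rfl
    rw [h5, hx]
    have h6 := hβα ⟨(m⁻¹ : P), h3⟩
    change _ * ((β ⟨(m⁻¹ : P), h3⟩ : (P ⊓ T : Subgroup Ω)) : Ω) ∈ _ at h4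
    rw [h6] at h4
    exact h4
  have hcl : ∀ α ∈ pResidual p (F.autGroup P), ∀ x : P, (x : Ω)⁻¹ * (((α : F.autGroup P) : MulAut P) x : P) ∈ E.hyperfocalSubgroup p := by
    intro α hα
    unfold pResidual at hα
    induction hα using Subgroup.closure_induction with
    | mem a ha => exact key a ha
    | one => intro x; change (x : Ω)⁻¹ * x ∈ _; rw [inv_mul_cancel]; exact Subgroup.one_mem _
    | mul a b _ _ ha hb =>
      intro x
      have h1 := Subgroup.mul_mem _ (hb x) (ha ((b : MulAut P) x))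
      have e : (x : Ω)⁻¹ * (((b : MulAut P) x : P) : Ω) * ((((b : MulAut P) x : P) : Ω)⁻¹ * (((a : MulAut P) ((b : MulAut P) x) : P) : Ω)) =
        (x : Ω)⁻¹ * (((a : MulAut P) ((b : MulAut P) x) : P) : Ω) := by group
      rw [e] at h1
      exact h1
    | inv a _ ha =>
      intro x
      have h1 := Subgroup.inv_mem _ (ha ((a : MulAut P)⁻¹ x))
      rw [MulAut.apply_inv_self, mul_inv_rev, inv_inv] at h1
      exact h1
  exact hcl α hα x

end Cfsg.Agent.L0.Fus
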