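import Cfsg.Agent.L0.Fus.PIdx6
set_option autoImplicit false
/-! Residual limits. -/

open Pointwise
open scoped commutatorElement

namespace Cfsg.Agent.L0.Fus

open Cfsg.Agent.L0 Cfsg.FusionSystem

universe u v w

section
variable {Ω : Type u} [Group Ω]

/-- Two systems with the same maps. -/
def Same {S T : Subgroup Ω} (F : FusionSystem S) (E : FusionSystem T) : Prop := ∀ P : Subgroup Ω, F.Hom P = E.Hom P

theorem Same.symm {S T : Subgroup Ω} {F : FusionSystem S} {E : FusionSystem T} (h : Same F E) : Same E F := fun P => (h P).symm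

theorem Same.trans {S T R : Subgroup Ω} {F : FusionSystem S} {E : FusionSystem T} {D : FusionSystem R} (h : Same F E) (h' : Same E D) : Same F D :=
  fun P => (h P).trans (h' P)

theorem Same.refl {S : Subgroup Ω} (F : FusionSystem S) : Same F F := fun _ => rfl

theorem Same.eq {S T : Subgroup Ω} {F : FusionSystem S} {E : FusionSystem T} (h : Same F E) : S = T := by
  apply le_antisymm
  · exact hom_le E ((h S).le (subtype_mem F le_rfl))
  · exact hom_le F ((h T).ge (subtype_mem E le_rfl))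

theorem Same.eq' {S : Subgroup Ω} {F E : FusionSystem S} (h : Same F E) : F = E := by
  obtain ⟨H, _, _, _, _, _⟩ := F
  obtain ⟨H', _, _, _, _, _⟩ := E
  have : @H = @H' := funext fun P => h P
  subst this
  rfl

/-- transport any property of fusion systems. -/
theorem Same.transport {S T : Subgroup Ω} {F : FusionSystem S} {E : FusionSystem T} (h : Same F E)
    (motive : ∀ S : Subgroup Ω, FusionSystem S → Prop) (hF : motive S F) : motive T E := by
  obtain rfl := h.eq
  obtain rfl := h.eq'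
  exact hF

theorem pprime_unique {p : ℕ} {S₁ S₂ : Subgroup Ω} {F₁ : FusionSystem S₁} {F₂ : FusionSystem S₂} (h : Same F₁ F₂)
    {D₁ : FusionSystem S₁} {D₂ : FusionSystem S₂} (h₁ : F₁.IsPPrimeResidual p D₁) (h₂ : F₂.IsPPrimeResidual p D₂) : Same D₁ D₂ := by
  obtain rfl := h.eq
  obtain rfl := h.eq'
  intro P
  exact le_antisymm (h₁.2.2 D₂ h₂.1 h₂.2.1 P) (h₂.2.2 D₁ h₁.1 h₁.2.1 P)

theorem pPowerIndex_same {p : ℕ} [Fact p.Prime] {S : Subgroup Ω} [Finite S] (hS : IsPGroup p S) {F : FusionSystem S} {T T' : Subgroup Ω} (hT : T = T')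
    {E : FusionSystem T} {E' : FusionSystem T'} (h1 : E.IsSaturated p) (h2 : E'.IsSaturated p) (h : E.HasPPowerIndexIn F p)
    (h' : E'.HasPPowerIndexIn F p) : Same E E' := by
  subst hT
  rw [pPowerIndex_unique hS h1 h2 h h']
  exact Same.refl _

theorem pPowerIndex_self {p : ℕ} {S : Subgroup Ω} [Finite S] {F : FusionSystem S} [Fact p.Prime] : F.HasPPowerIndexIn F p :=
  ⟨fun P => subset_rfl, hyperfocal_le F, fun P _ => Subgroup.map_subtype_le _⟩

theorem resid_of_stable {p : ℕ} [Fact p.Prime] {S : Subgroup Ω} [Finite S] (hS : IsPGroup p S) {F : FusionSystem S} (h1 : F.hyperfocalSubgroup p = S) (h2 : F.IsPPrimeResidual p F) :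
    ∀ (q : ℕ) {V : Subgroup Ω} (L : FusionSystem V) {S' : Subgroup Ω} (F' : FusionSystem S'), L.IsResidualLimitOf F' q → q = p → Same F' F → Same L F := by
  intro q V L S' F' hL
  induction hL with
  | stable F' q _ _ => intro _ h; exact h
  | @step S' E F' q D D' hD hD' _ ih =>
    rintro rfl h
    refine ih rfl ?_
    obtain rfl := h.eq
    obtain rfl := h.eq'
    have h3 : Same D F' := pPowerIndex_same hS h1 hD.1 h2.1 hD.2 pPowerIndex_self
    exact pprime_unique h3 hD' h2

theorem resid_cases {p : ℕ} {V S : Subgroup Ω} {L : FusionSystem V} {F : FusionSystem S} (h : L.IsResidualLimitOf F p) :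
    (Same L F ∧ F.hyperfocalSubgroup p = S ∧ F.IsPPrimeResidual p F) ∨
      ∃ D D' : FusionSystem (F.hyperfocalSubgroup p), F.IsPResidual p D ∧ D.IsPPrimeResidual p D' ∧ L.IsResidualLimitOf D' p := by
  cases h with
  | stable _ _ h1 h2 => exact Or.inl ⟨Same.refl _, h1, h2⟩
  | step _ _ D D' h1 h2 h3 => exact Or.inr ⟨D, D', h1, h2, h3⟩

theorem resid_unique {p : ℕ} [Fact p.Prime] : ∀ (q : ℕ) {V : Subgroup Ω} (L : FusionSystem V) {S : Subgroup Ω} (F : FusionSystem S),
    L.IsResidualLimitOf F q → q = p → ∀ [Finite S], IsPGroup p S → F.IsSaturated p → ∀ {V' : Subgroup Ω} (L' : FusionSystem V') {S' : Subgroup Ω} (F' : FusionSystem S'),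
    L'.IsResidualLimitOf F' p → Same F' F → Same L L' := by
  intro q V L S F hL
  induction hL with
  | stable F q h1 h2 =>
    rintro rfl _ hS hF V' L' S' F' hL' h
    exact (resid_of_stable hS h1 h2 q L' F' hL' rfl h).symm
  | @step S E F q D D' hD hD' hE ih =>
    rintro rfl _ hS hF V' L' S' F' hL' h
    obtain rfl := h.eq
    obtain rfl := h.eq'
    have hHS := hyperfocal_le (p := q) F'
    haveI := finite_of_le hHS
    rcases resid_cases hL' with ⟨h1, h2, h3⟩ | ⟨D₂, D₂', h1, h2, h3⟩
    · exact (resid_of_stable hS h2 h3 q E F' (IsResidualLimitOf.step F' q D D' hD hD' hE) rfl (Same.refl _)).trans h1.symm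
    · have h4 : Same D D₂ := pPowerIndex_same hS rfl hD.1 h1.1 hD.2 h1.2
      have h5 := pprime_unique h4 hD' h2
      exact ih rfl (hS.to_le hHS) hD'.1 L' D₂' h3 h5.symm

theorem resid_pPowerIndex {p : ℕ} [Fact p.Prime] {S : Subgroup Ω} [Finite S] (hS : IsPGroup p S) {F : FusionSystem S} (hF : F.IsSaturated p)
    {T : Subgroup Ω} {E : FusionSystem T} (hE : E.IsSaturated p) (hidx : E.HasPPowerIndexIn F p) {U V : Subgroup Ω}
    {Finf : FusionSystem U} (hFinf : Finf.IsResidualLimitOf F p) {Einf : FusionSystem V} (hEinf : Einf.IsResidualLimitOf E p) : Same Finf Einf := by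
  have hTS : T ≤ S := hom_le F (hidx.1 T (subtype_mem E le_rfl))
  haveI := finite_of_le hTS
  have hTp : IsPGroup p T := hS.to_le hTS
  have hhyp := hyp_eq_of_pPowerIndex hS hidx
  rcases resid_cases hFinf with ⟨h1, h2, h3⟩ | ⟨D₁, D₁', h1, h2, h3⟩
  · have hTT : T = S := le_antisymm hTS (by rw [← h2]; exact hidx.2.1)
    have h4 : Same E F := pPowerIndex_same hS hTT hE hF hidx pPowerIndex_self
    exact resid_unique p Finf F hFinf rfl hS hF Einf E hEinf h4
  · rcases resid_cases hEinf with ⟨k1, k2, k3⟩ | ⟨D₂, D₂', k1, k2, k3⟩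
    · have h4 : Same D₁ E := pPowerIndex_same hS (by rw [← hhyp, k2]) h1.1 hE h1.2 hidx
      have h5 := pprime_unique h4 h2 k3
      exact (resid_of_stable hTp k2 k3 p Finf D₁' h3 rfl h5).trans k1.symm
    · have h4 : Same D₂ D₁ := pPowerIndex_same hS hhyp k1.1 h1.1 (pPowerIndex_trans hS hTS hidx k1.2 hhyp.ge (hyperfocal_le E)) h1.2
      have h5 := pprime_unique h4 k2 h2
      have hHS := hyperfocal_le (p := p) F
      haveI := finite_of_le hHS
      exact resid_unique p Finf D₁' h3 rfl (hS.to_le hHS) h2.1 Einf D₂' k3 h5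

end

end Cfsg.Agent.L0.Fus
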