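import Cfsg.Agent.L0.Fus.Prime11
set_option autoImplicit false
/-! Characters of `Aut_F(T)`, `T` strongly closed, and subsystems of index prime to `p`. -/

open Pointwise

namespace Cfsg.Agent.L0.Fus

open Cfsg.Agent.L0 Cfsg.FusionSystem

variable {Ω : Type*} [Group Ω] {S : Subgroup Ω}

section
variable {F : FusionSystem S} {P Q R D D' X X' W W' P' : Subgroup Ω} {f g μ : Ω → Ω} {a b : MulAut S} {p : ℕ}

theorem stronglyClosed_S : F.StronglyClosed S := ⟨le_rfl, fun _ _ _ hφ x => hom_mem F hφ x⟩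

theorem invariant_of_gd {E : FusionSystem S} (hG : GD F E) (hfr : ∀ P Q f, Mi F P Q f → ∃ a, V F E P Q f a) : E.IsInvariantIn F := by
  refine ⟨hG.le, stronglyClosed_S, fun P hPS φ hφ α hα => ?_, fun P hPS φ hφ => ?_⟩
  · obtain ⟨χ, hχ, h1, h2⟩ := hG.inv α hα _ _ _ (mi_toF.mpr hφ)
    refine ⟨χ, hχ, fun x hφx hαx => (h1 ⟨_, hαx⟩).trans ?_⟩
    simp only [Function.comp_apply]
    have h3 : ac α⁻¹ ((α ⟨x, hPS x.2⟩ : S) : Ω) = x := by
      rw [← ac_apply α (hPS x.2), ac_inv_ac α (hPS x.2)]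
    rw [h3, toF_coe, ac_apply α hφx]
  · have h0 := mi_toF.mpr hφ
    obtain ⟨a, ha, ha2⟩ := hfr _ _ _ h0
    obtain ⟨φ₀, hφ₀, h1, h2⟩ := ha2
    refine ⟨a, ha, φ₀, hφ₀, fun x hx => ?_⟩
    rw [← ac_apply a hx, h1]
    simp only [Function.comp_apply]
    rw [ac_ac_inv a (h0.le' (h0.mem x.2)), toF_coe]

theorem normal_over_S {E : FusionSystem S} (hF : F.IsSaturated p) (hE : E.IsSaturated p) (hi : E.IsInvariantIn F) : E.IsNormalIn F p := by
  refine ⟨⟨hE, hF, hi⟩, fun α hα => ?_⟩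
  have hU : S ⊔ centralizerIn S S = S := sup_eq_left.mpr inf_le_left
  let e : S ≃* ↥(S ⊔ centralizerIn S S) := MulEquiv.subgroupCongr hU.symm
  have he : Iso F S (S ⊔ centralizerIn S S) e := by
    have h1 : (S ⊔ centralizerIn S S).subtype.comp e.toMonoidHom = S.subtype := MonoidHom.ext fun x => rfl
    unfold Iso
    rw [h1]; exact subtype_mem F le_rfl
  have hαF : α ∈ F.autGroup S := mem_autGroup_of_iso F (hi.1 S ((mem_autGroup E le_rfl).mp hα))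
  have key : ∀ x : ↥(S ⊔ centralizerIn S S), ((autCongr e α x : ↥(S ⊔ centralizerIn S S)) : Ω) = ac α x := by
    intro x
    have hx : (x : Ω) ∈ S := hU.le x.2
    rw [autCongr_apply, ac_apply α hx]
    rfl
  refine ⟨autCongr e α, autCongr_mem he hαF, fun x => ?_, fun c hc => ?_⟩
  · rw [key]
    exact ac_apply α x.2
  · rw [key]
    have hcS : (c : Ω) ∈ S := hU.le c.2
    have hcc := (mem_centralizerIn.mp hc).2
    have h1 : ac α c ∈ Subgroup.centralizer (S : Set Ω) := by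
      intro y hy
      have hm := (mi_ac (F := F) (P := S) le_rfl).mpr hαF
      obtain ⟨x, hx, rfl⟩ := hm.surj hy
      rw [← hm.map_mul hx hcS, ← hm.map_mul hcS hx, hcc x hx]
    exact Subgroup.mem_inf.mpr ⟨S.mul_mem (S.inv_mem hcS) (ac_mem α hcS), Subgroup.mul_mem _ (Subgroup.inv_mem _ (fun y hy => hcc y hy)) h1⟩

/-- the data of a normal `p'`-index subgroup of `Aut_F(T)` containing `Aut_E(T)` -/
structure KD (F : FusionSystem S) {T : Subgroup Ω} (E : FusionSystem T) (p : ℕ) (K : Subgroup (MulAut T)) : Prop where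
  wn : E.IsWeaklyNormalIn F p
  EK : E.autGroup T ≤ K
  KF : K ≤ F.autGroup T
  Kn : ∀ a ∈ F.autGroup T, ∀ k ∈ K, a * k * a⁻¹ ∈ K
  Kp : ∀ a ∈ F.autGroup T, ∀ n, a ^ p ^ n ∈ K → a ∈ K

variable {T : Subgroup Ω} {E : FusionSystem T} {K : Subgroup (MulAut T)}

theorem KD.tS (h : KD F E p K) : T ≤ S := h.wn.2.2.2.1.1
theorem KD.sc (h : KD F E p K) : F.StronglyClosed T := h.wn.2.2.2.1
theorem KD.gd (h : KD F E p K) : GD (restrictSystem F T h.tS) E := gd_of_invariant h.tS h.wn.2.2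
theorem KD.fr (h : KD F E p K) : ∀ P Q f, Mi (restrictSystem F T h.tS) P Q f → ∃ a, V (restrictSystem F T h.tS) E P Q f a :=
  fun _ _ _ hf => fr_of_invariant h.tS h.wn.2.2 hf

theorem mem_res (hTS : T ≤ S) {α : MulAut T} : α ∈ (restrictSystem F T hTS).autGroup T ↔ α ∈ F.autGroup T := by
  rw [restrict_autGroup hTS le_rfl]

variable [Fact p.Prime] [Finite S]

omit [Fact p.Prime] [Finite S] in
theorem KD.conj [Finite T] (h : KD F E p K) (hS : IsPGroup p S) {s : Ω} (hs : s ∈ S) : ∃ a ∈ K, ∀ x ∈ T, ac a x = s * x * s⁻¹ := by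
  have hsT := (StronglyClosed.le_normalizer h.sc) hs
  refine ⟨T.normalizerMonoidHom ⟨s, hsT⟩, ?_, fun x hx => ac_apply _ hx⟩
  obtain ⟨k, hk⟩ := hS ⟨s, hs⟩
  refine h.Kp _ (autInducedBy_le_autGroup F h.tS (mem_autInducedBy.mpr ⟨s, hs, fun x => rfl⟩)) k ?_
  rw [← map_pow]
  have h1 : (⟨s, hsT⟩ : Subgroup.normalizer (T : Set Ω)) ^ p ^ k = 1 := Subtype.ext (by
    have := congrArg Subtype.val hk
    simpa using this)
  rw [h1, map_one]; exact K.one_mem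

/-- the system of the maps whose restriction to `T` has a value in `K` -/
def chiSys (h : KD F E p K) (hKS : ∀ s ∈ S, ∃ a ∈ K, ∀ x ∈ T, ac a x = s * x * s⁻¹) : FusionSystem S :=
  ofRel F (fun P Q f => ∃ a ∈ K, V (restrictSystem F T h.tS) E (P ⊓ T) (Q ⊓ T) f a)
    (fun _ _ _ _ hfg ⟨a, ha, hv⟩ => ⟨a, ha, hv.congr fun x hx => hfg x (Subgroup.mem_inf.mp hx).1⟩)
    (fun P s hP hs => by
      obtain ⟨a, ha, has⟩ := hKS s hs
      refine ⟨a, ha, ?_⟩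
      have ha' := (mem_res (F := F) h.tS).mpr (h.KF ha)
      have h1 := v_ac (G := E) ha' (show P ⊓ T ≤ T from inf_le_right)
      have h2 := (mi_conj (F := F) hP hs).inf h.tS h.sc
      have h3 := mi_im ha' (show P ⊓ T ≤ T from inf_le_right)
      have hag : ∀ x ∈ P ⊓ T, ac a x = s * x * s⁻¹ := fun x hx => has x (Subgroup.mem_inf.mp hx).2
      rw [h3.range_unique h2 hag] at h1
      exact h1.congr hag)
    (fun _ _ _ _ _ hf hg ⟨a, ha, h1⟩ ⟨b, hb, h2⟩ => ⟨b * a, K.mul_mem hb ha, h1.comp h.gd (hf.inf h.tS h.sc) (hg.inf h.tS h.sc) h2⟩)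
    (fun _ _ _ _ hf _ hgf ⟨a, ha, hv⟩ => ⟨a⁻¹, K.inv_mem ha, hv.symm_of h.gd (hf.inf h.tS h.sc) fun x hx => hgf x (Subgroup.mem_inf.mp hx).1⟩)
    (fun _ _ _ _ _ _ hf' hP ⟨a, ha, hv⟩ => ⟨a, ha, hv.restrict h.gd (inf_le_inf_right _ hP) (hf'.inf h.tS h.sc)⟩)

omit [Fact p.Prime] [Finite S] in
theorem mi_chiSys {h : KD F E p K} {hKS : ∀ s ∈ S, ∃ a ∈ K, ∀ x ∈ T, ac a x = s * x * s⁻¹} :
    Mi (chiSys h hKS) P Q f ↔ Mi F P Q f ∧ ∃ a ∈ K, V (restrictSystem F T h.tS) E (P ⊓ T) (Q ⊓ T) f a := mi_ofRel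

/-- restriction of automorphisms of `S` -/
theorem KD.res_aut (h : KD F E p K) (ha : a ∈ F.autGroup S) : ∃ b ∈ F.autGroup T, ∀ x ∈ T, ac b x = ac a x := by
  have h1 := ((mi_ac le_rfl).mpr ha).inf h.tS h.sc
  rw [inf_eq_right.mpr h.tS] at h1
  obtain ⟨b, hb, hb1⟩ := h1.aut
  exact ⟨b, (mem_res h.tS).mp hb, hb1⟩

theorem KD.star (h : KD F E p K) (hS : IsPGroup p S) (hX : E.IsCentric X) {c : MulAut T} (hc : V (restrictSystem F T h.tS) E X X id c) : c ∈ K := by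
  haveI : Finite T := finite_of_le h.tS
  have h1 := Fus.star (hS.to_le h.tS) h.wn.1 h.gd h.EK (fun a ha n hn => h.Kp a ((mem_res h.tS).mp ha) n hn) _ X hX rfl _
    (Subgroup.inv_mem _ hc.1) _ hc.2
  have h2 := K.inv_mem h1
  rwa [inv_inv] at h2

theorem KD.value (h : KD F E p K) (hS : IsPGroup p S) (hX : E.IsCentric (P ⊓ T)) (ha : a ∈ F.autGroup S) {b : MulAut T} (hb : b ∈ F.autGroup T)
    (hab : ∀ x ∈ T, ac b x = ac a x) (hP : P ≤ S) {c : MulAut T} (hc : c ∈ K) (hfa : Mi F P Q (ac a))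
    (hv : V (restrictSystem F T h.tS) E (P ⊓ T) (Q ⊓ T) (ac a) c) : b ∈ K := by
  have hb' := (mem_res (F := F) h.tS).mpr hb
  have h1 := v_ac (G := E) hb' (show P ⊓ T ≤ T from inf_le_right)
  have h3 := mi_im hb' (show P ⊓ T ≤ T from inf_le_right)
  have h2 := hfa.inf h.tS h.sc
  have hag : ∀ x ∈ P ⊓ T, ac b x = ac a x := fun x hx => hab x (Subgroup.mem_inf.mp hx).2
  rw [h3.range_unique h2 hag] at h1
  obtain ⟨i, hi, hi1, hi2⟩ := h2.symm
  have h4 : V (restrictSystem F T h.tS) E (P ⊓ T) (P ⊓ T) id (c⁻¹ * b) :=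
    ((h1.congr hag).comp h.gd h2 hi (hv.symm_of h.gd h2 hi1)).congr fun x hx => hi1 x hx
  have h5 := K.mul_mem hc (h.star hS hX h4)
  rwa [mul_inv_cancel_left] at h5

theorem gC_le_chiSys (h : KD F E p K) (hS : IsPGroup p S) (hKS : ∀ s ∈ S, ∃ a ∈ K, ∀ x ∈ T, ac a x = s * x * s⁻¹) :
    (gC F p).IsSubsystemOf (chiSys h hKS) := by
  have hF := h.wn.2.1
  have hST : S ⊓ T = T := inf_eq_right.mpr h.tS
  haveI : Finite T := finite_of_le h.tS
  let good : Subgroup Ω → Prop := fun P => F.IsCentric P ∧ E.IsCentric (P ⊓ T)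
  have h1 : (gC F p).IsSubsystemOf (gSys F p good good) := by
    refine gC_le_good hS hF (fun P hP => hP.1) ?_ ?_ ?_
    · rintro P Q hPQ ⟨h1, h2⟩
      obtain ⟨f, hf⟩ := exists_mi_of_isConj hPQ
      refine ⟨?_, centric_of_fr h.gd h.fr h2 (hf.inf h.tS h.sc)⟩
      obtain ⟨φ, hφ, h3⟩ := hPQ
      rw [← h3]; exact centric_range h1 hφ
    · exact fun P hPc hPr => ⟨hPc, inf_centric hS h.wn hPc hPr⟩
    · exact ⟨centric_S, by rw [hST]; exact centric_S⟩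
  refine fun P φ hφ => gSys_le_of ?_ P (h1 P hφ)
  refine ⟨fun P φ hφ => hφ.1, fun P hP β hβ hk => ?_, fun P hP c hc hQ => ?_⟩
  · have hPS := hP.1.1
    rw [← mi_ac hPS] at hβ ⊢
    refine mi_chiSys.mpr ⟨hβ, ?_⟩
    obtain ⟨a, ha⟩ := h.fr _ _ _ (hβ.inf h.tS h.sc)
    refine ⟨a, ?_, ha⟩
    obtain ⟨k, hk⟩ := hk
    have h2 := (v_iter h.gd (hβ.inf h.tS h.sc) ha (p ^ k)).2
    have h3 : ∀ n : ℕ, ∀ x ∈ P, ((ac β)^[n]) x = ac (β ^ n) x := by
      intro n x hx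
      induction n with
      | zero => rw [pow_zero, ac_one hx]; rfl
      | succ n ih => rw [Function.iterate_succ_apply', ih, pow_succ', ac_mul _ _ hx]
    have h4 : V (restrictSystem F T h.tS) E (P ⊓ T) (P ⊓ T) id (a ^ p ^ k) := h2.congr fun x hx => by
      have hxP := (Subgroup.mem_inf.mp hx).1
      rw [h3 _ x hxP, ← hk, pow_orderOf_eq_one, ac_one hxP]; rfl
    exact h.Kp a ((mem_res h.tS).mp ha.1) k (h.star hS hP.2 h4)
  · obtain ⟨Q, hQ⟩ := hQ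
    obtain ⟨hQF, k, hk, hkV⟩ := mi_chiSys.mp hQ
    obtain ⟨b, hb, hbc⟩ := h.res_aut hc
    have h2 := h.value hS hP.2 hc hb hbc hP.1.1 hk hQF hkV
    rw [← mi_ac le_rfl]
    have hcS := (mi_ac (F := F) (P := S) le_rfl).mpr hc
    refine mi_chiSys.mpr ⟨hcS, b, h2, ?_⟩
    have hb' := (mem_res (F := F) h.tS).mpr hb
    have h3 := v_ac (G := E) hb' (le_refl T)
    rw [im_self] at h3
    rw [hST]
    exact h3.congr hbc

end

end Cfsg.Agent.L0.Fus
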