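import Cfsg.Agent.L0.Fus.Prime12
set_option autoImplicit false
/-! The subsystem of a character of `Aut_F(T)`. -/

open Pointwise

namespace Cfsg.Agent.L0.Fus

open Cfsg.Agent.L0 Cfsg.FusionSystem

variable {Ω : Type*} [Group Ω] {S : Subgroup Ω}

section
variable {F : FusionSystem S} {P Q R D D' X X' W W' P' : Subgroup Ω} {f g μ : Ω → Ω} {a b : MulAut S} {p : ℕ}
variable {T : Subgroup Ω} {E : FusionSystem T} {K : Subgroup (MulAut T)}

/-- the automorphisms of `S` restricting into `K` -/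
def KD.H (h : KD F E p K) : Subgroup (MulAut S) where
  carrier := {α | α ∈ F.autGroup S ∧ ∃ b ∈ K, ∀ x ∈ T, ac b x = ac α x}
  one_mem' := ⟨Subgroup.one_mem _, 1, K.one_mem, fun x hx => by rw [ac_one hx, ac_one (h.tS hx)]⟩
  mul_mem' := by
    rintro α α' ⟨h1, b, hb, h2⟩ ⟨h3, b', hb', h4⟩
    refine ⟨Subgroup.mul_mem _ h1 h3, b * b', K.mul_mem hb hb', fun x hx => ?_⟩
    rw [ac_mul _ _ hx, ac_mul _ _ (h.tS hx), h2 _ (ac_mem b' hx), h4 x hx]
  inv_mem' := by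
    rintro α ⟨h1, b, hb, h2⟩
    refine ⟨Subgroup.inv_mem _ h1, b⁻¹, K.inv_mem hb, fun x hx => ?_⟩
    have h3 := h2 _ (ac_mem b⁻¹ hx)
    rw [ac_ac_inv b hx] at h3
    conv_rhs => rw [h3, ac_inv_ac α (h.tS (ac_mem b⁻¹ hx))]

theorem KD.mem_H (h : KD F E p K) {α : MulAut S} : α ∈ h.H ↔ α ∈ F.autGroup S ∧ ∃ b ∈ K, ∀ x ∈ T, ac b x = ac α x := Iff.rfl

variable [Fact p.Prime] [Finite S]

theorem KD.H_normal (h : KD F E p K) (ha : a ∈ F.autGroup S) (hb : b ∈ h.H) : a * b * a⁻¹ ∈ h.H := by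
  obtain ⟨h1, k, hk, h2⟩ := h.mem_H.mp hb
  obtain ⟨c, hc, hca⟩ := h.res_aut ha
  refine ⟨Subgroup.mul_mem _ (Subgroup.mul_mem _ ha h1) (Subgroup.inv_mem _ ha), c * k * c⁻¹, h.Kn c hc k hk, fun x hx => ?_⟩
  have h3 : ac c⁻¹ x = ac a⁻¹ x := by
    have h4 := hca _ (ac_mem c⁻¹ hx)
    rw [ac_ac_inv c hx] at h4
    conv_rhs => rw [h4, ac_inv_ac a (h.tS (ac_mem c⁻¹ hx))]
  rw [ac_mul _ _ hx, ac_mul _ _ (ac_mem _ hx), ac_mul _ _ (h.tS hx), ac_mul _ _ (ac_mem _ (h.tS hx)), ← h3,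
    ← h2 _ (ac_mem _ hx), ← hca _ (ac_mem _ (ac_mem _ hx))]

theorem KD.G_le_H (h : KD F E p K) (hS : IsPGroup p S) : (gC F p).autGroup S ≤ h.H := by
  haveI : Finite T := finite_of_le h.tS
  intro a ha
  have hG := std_gC (F := F) hS h.wn.2.1
  have hKS := fun s hs => h.conj hS (s := s) hs
  have haF := autGroup_mono hG.le le_rfl ha
  obtain ⟨b, hb, hba⟩ := h.res_aut haF
  refine ⟨haF, b, ?_, hba⟩
  have h1 := ((mi_ac le_rfl).mpr ha).mono (gC_le_chiSys h hS hKS)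
  obtain ⟨h2, c, hc, h3⟩ := mi_chiSys.mp h1
  have hST : S ⊓ T = T := inf_eq_right.mpr h.tS
  exact h.value hS (by rw [hST]; exact centric_S) haF hb hba le_rfl hc h2 h3

/-- the subsystem -/
def KD.F₀ (h : KD F E p K) (hS : IsPGroup p S) : FusionSystem S := hSys F (gC F p) (std_gC (F := F) hS h.wn.2.1).toGD h.H

theorem KD.mem_F₀ (h : KD F E p K) (hS : IsPGroup p S) {α : MulAut S} : α ∈ (h.F₀ hS).autGroup S ↔ α ∈ h.H := by
  have hG := std_gC (F := F) hS h.wn.2.1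
  constructor
  · intro hα
    rw [← mi_ac le_rfl] at hα
    obtain ⟨h1, c, hc, h2⟩ := mi_hSys.mp hα
    have h3 := v_ac (G := gC F p) ((mi_ac le_rfl).mp h1) (le_refl S)
    rw [im_self] at h3
    have h4 := h.G_le_H hS (h2.uniq' hG centric_S h1 h3)
    have h5 := h.H.mul_mem hc h4
    rwa [mul_inv_cancel_left] at h5
  · intro hα
    rw [← mi_ac le_rfl]
    have h1 := (mi_ac (F := F) (P := S) le_rfl).mpr hα.1
    have h3 := v_ac (G := gC F p) hα.1 (le_refl S)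
    rw [im_self] at h3
    exact mi_hSys.mpr ⟨h1, α, hα, h3⟩

theorem KD.F₀_gd (h : KD F E p K) (hS : IsPGroup p S) : GD F (h.F₀ hS) := by
  have hG := std_gC (F := F) hS h.wn.2.1
  refine ⟨hSys_le, fun α hα P Q f hf => ?_⟩
  obtain ⟨h1, a, ha, h2⟩ := mi_hSys.mp hf
  have hα' := Subgroup.inv_mem _ hα
  have h3 := mi_im hα' (show im α P ≤ S from im_le)
  rw [im_inv_im h1.le] at h3
  have h4 := v_ac (G := gC F p) hα' (show im α P ≤ S from im_le)
  rw [im_inv_im h1.le] at h4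
  have h5 := mi_im hα h1.le'
  have h6 := v_ac (G := gC F p) hα h1.le'
  have h7 := (h4.comp hG.toGD h3 h1 h2).comp hG.toGD (h3.comp h1) h5 h6
  rw [← mul_assoc] at h7
  exact mi_hSys.mpr ⟨(h3.comp h1).comp h5, _, h.H_normal hα ha, h7⟩

theorem KD.F₀_fr (h : KD F E p K) (hS : IsPGroup p S) (P Q : Subgroup Ω) (f : Ω → Ω) (hf : Mi F P Q f) : ∃ a, V F (h.F₀ hS) P Q f a := by
  have hG := std_gC (F := F) hS h.wn.2.1
  obtain ⟨a, ha, ha2⟩ := hG.fr P Q f hf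
  exact ⟨a, ha, ha2.mono le_hSys⟩

theorem KD.F₀_normal (h : KD F E p K) (hS : IsPGroup p S) : (h.F₀ hS).IsNormalIn F p := by
  have hG := std_gC (F := F) hS h.wn.2.1
  exact normal_over_S h.wn.2.1 (hSys_saturated hS h.wn.2.1 hG (fun P hP => mc_gC hS h.wn.2.1 _ P hP rfl))
    (invariant_of_gd (h.F₀_gd hS) (h.F₀_fr hS))

theorem KD.le_F₀ (h : KD F E p K) (hS : IsPGroup p S) : E.IsSubsystemOf (h.F₀ hS) := by
  haveI : Finite T := finite_of_le h.tS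
  have hG := std_gC (F := F) hS h.wn.2.1
  have hKS := fun s hs => h.conj hS (s := s) hs
  have h0 : E ≤ restrictSystem (h.F₀ hS) T h.tS := by
    refine le_of_centric (hS.to_le h.tS) h.wn.1 _ fun P hPc ε hε => ?_
    have hPT := hPc.1
    have hPi : P ⊓ T = P := inf_eq_left.mpr hPT
    rw [restrict_autGroup h.tS hPT, ← mi_ac (hPT.trans h.tS)]
    have h1 := (mi_ac hPT).mpr hε
    have h1F : Mi F P P (ac ε) := h1.mono h.wn.2.2.1
    obtain ⟨a, ha⟩ := hG.fr _ _ _ h1F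
    refine mi_hSys.mpr ⟨h1F, a, ?_, ha⟩
    obtain ⟨h2, c, hc, h3⟩ := mi_chiSys.mp (ha.2.mono (gC_le_chiSys h hS hKS))
    have ha' := Subgroup.inv_mem _ ha.1
    obtain ⟨b, hb, hba⟩ := h.res_aut ha'
    have hb' := (mem_res (F := F) h.tS).mpr hb
    have h4 := ((v_one h.gd).mp h1).2.2
    have h5 := v_ac (G := E) hb' hPT
    have h1R := h1.mono h.gd.le
    have h6 := h4.comp h.gd h1R (mi_im hb' hPT) h5
    rw [mul_one] at h6
    have h7 := h2.inf h.tS h.sc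
    rw [hPi] at h7 h3
    have hag : ∀ x ∈ P, (ac b ∘ ac ε) x = (ac a⁻¹ ∘ ac ε) x := fun x hx => hba _ (hPT (ac_mem ε hx))
    have h8 := h6.congr hag
    rw [(h1R.comp (mi_im hb' hPT)).range_unique h7 hag] at h8
    obtain ⟨i, hi, hi1, hi2⟩ := h7.symm
    have h9 : V (restrictSystem F T h.tS) E P P id (c⁻¹ * b) := (h8.comp h.gd h7 hi (h3.symm_of h.gd h7 hi1)).congr fun x hx => hi1 x hx
    have h10 := K.mul_mem hc (h.star hS hPc h9)
    rw [mul_inv_cancel_left] at h10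
    have h11 : a⁻¹ ∈ h.H := ⟨ha', b, h10, hba⟩
    have h12 := h.H.inv_mem h11
    rwa [inv_inv] at h12
  exact fun P φ hφ => (h0 P hφ).1

theorem KD.residual_le (h : KD F E p K) (hS : IsPGroup p S) {R : FusionSystem S} (hR : F.IsPPrimeResidual p R) : R.IsSubsystemOf (h.F₀ hS) := by
  have hG := std_gC (F := F) hS h.wn.2.1
  exact hR.2.2 _ (h.F₀_normal hS).1.1 (primeToP_of hS h.wn.2.1 hG.toGD hG.fr hSys_le le_hSys)

theorem KD.eq_top (h : KD F E p K) (hS : IsPGroup p S) (hH : F.autGroup S ≤ h.H) : F.autGroup T ≤ K := by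
  haveI : Finite T := finite_of_le h.tS
  have hF := h.wn.2.1
  have hTS := h.tS
  haveI := finite_autGroup (S := S) hTS
  have hTn : F.IsFullyNormalized T := by
    refine ⟨hTS, fun Q hQ => ?_⟩
    obtain ⟨φ, hφ, h1⟩ := hQ
    have h2 : Q ≤ T := by
      rw [← h1]; rintro _ ⟨x, rfl⟩; exact StronglyClosed.mem h.sc hφ x.2
    have h3 : Q = T := Subgroup.eq_of_le_of_card_ge h2 (isConj_card ⟨φ, hφ, h1⟩).le
    rw [h3]
  have hsyl := isSylowIn_autInducedBy (fullyAutomized_of_fullyNormalized_sat hS hF hTn)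
  have hAK : autInducedBy S T ≤ K := by
    intro τ hτ
    obtain ⟨s, hs, hsx⟩ := mem_autInducedBy.mp hτ
    obtain ⟨a, ha, has⟩ := h.conj hS hs
    have : τ = a := by
      ext x
      rw [hsx, ← has x x.2, ac_apply a x.2]
    rw [this]; exact ha
  have hsylK : IsSylowIn p (autInducedBy S T) K := IsSylowIn.of_le hsyl hAK h.KF
  intro β hβ
  have hRK : MulAut.conj β • autInducedBy S T ≤ K := by
    intro x hx
    rw [mem_conj_smul] at hx
    have h1 := h.Kn β hβ _ (hAK hx)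
    have h2 : β * (β⁻¹ * x * β) * β⁻¹ = x := by group
    rwa [h2] at h1
  have hRp : IsPGroup p ↥(MulAut.conj β • autInducedBy S T) := by
    have h1 := isPGroup_autInducedBy (p := p) hS hTS
    rw [conj_smul_eq_map]
    exact h1.map _
  obtain ⟨k, hk, hkle⟩ := IsSylowIn.exists_conj_le hsylK hRp hRK
  have hkβ : k * β ∈ F.autGroup T := Subgroup.mul_mem _ (h.KF hk) hβ
  have hmi := (mi_ac (F := F) hTS).mpr hkβ
  obtain ⟨g, W', hg, hgk⟩ := mi_extend (W := S) (receptive_of_fullyNormalized_sat hS hF hTn) hmi hTS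
    (le_inf le_rfl (StronglyClosed.le_normalizer h.sc)) (by
      intro w hw
      have hwT := (StronglyClosed.le_normalizer h.sc) hw
      have h1 : T.normalizerMonoidHom ⟨w, hwT⟩ ∈ autInducedBy S T := mem_autInducedBy.mpr ⟨w, hw, fun x => rfl⟩
      have h2 : (k * β) * T.normalizerMonoidHom ⟨w, hwT⟩ * (k * β)⁻¹ ∈ autInducedBy S T := by
        apply hkle
        rw [mem_conj_smul, mem_conj_smul]
        have h3 : β⁻¹ * (k⁻¹ * (k * β * T.normalizerMonoidHom ⟨w, hwT⟩ * (k * β)⁻¹) * k) * β = T.normalizerMonoidHom ⟨w, hwT⟩ := by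
          group
        rw [h3]; exact h1
      obtain ⟨s, hs, hsx⟩ := mem_autInducedBy.mp h2
      refine ⟨s, hs, fun x hx => ?_⟩
      have h3 := hsx ((k * β) ⟨x, hx⟩)
      rw [MulAut.mul_apply, MulAut.mul_apply, MulAut.inv_apply_self] at h3
      have hwx : w * x * w⁻¹ ∈ T := (Subgroup.mem_normalizer_iff.mp hwT x).mp hx
      rw [ac_apply _ hwx, ac_apply _ hx, ← h3]
      rfl)
  have hgS : Mi F S S g := mi_of_maps hg le_rfl fun x hx => hg.le' (hg.mem hx)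
  obtain ⟨a, ha, hag⟩ := hgS.aut
  obtain ⟨-, b, hb, hba⟩ := h.mem_H.mp (hH ha)
  have h1 : b = k * β := by
    ext x
    have h2 := hba x x.2
    rw [hag _ (hTS x.2), hgk x x.2, ac_apply _ x.2, ac_apply _ x.2] at h2
    exact h2
  rw [h1] at hb
  have h2 := K.mul_mem (K.inv_mem hk) hb
  rwa [inv_mul_cancel_left] at h2

end

/-- S5243 -/
theorem char_main {Ω : Type*} [Group Ω] {S : Subgroup Ω} [Finite S] (p : ℕ) [Fact p.Prime] (hS : IsPGroup p S) (F : Cfsg.FusionSystem S) {T : Subgroup Ω} (hTS : T ≤ S) (E : Cfsg.FusionSystem T) (hE : E.IsWeaklyNormalIn F p) {Δ : Type*} [Group Δ] [Finite Δ] [Nontrivial Δ] (hΔ : (Nat.card Δ).Coprime p) (χ : ↥(F.autGroup T) →* Δ) (hχ : Function.Surjective χ) (hker : (E.autGroup T).subgroupOf (F.autGroup T) ≤ χ.ker) : ∃ F₀ : Cfsg.FusionSystem S, F₀.IsNormalIn F p ∧ ¬ (∀ P : Subgroup Ω, F₀.Hom P = F.Hom P) ∧ E.IsSubsystemOf F₀ ∧ (∀ α : MulAut ↥S, α ∈ F₀.autGroup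 S ↔ α ∈ F.autGroup S ∧ ∃ β : ↥(F.autGroup T), χ β = 1 ∧ ∀ t : ↥T, (((β : MulAut ↥T) t : ↥T) : Ω) = ((α ⟨(t : Ω), hTS t.2⟩ : ↥S) : Ω)) ∧ ∀ R : Cfsg.FusionSystem S, F.IsPPrimeResidual p R → R.IsSubsystemOf F₀ := by
  have hKD : KD F E p (χ.ker.map (F.autGroup T).subtype) := by
    refine ⟨hE, fun x hx => ?_, Subgroup.map_subtype_le _, ?_, ?_⟩
    · have h1 : x ∈ F.autGroup T := autGroup_mono hE.2.2.1 le_rfl hx
      exact ⟨⟨x, h1⟩, hker (Subgroup.mem_subgroupOf.mpr hx), rfl⟩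
    · rintro a ha _ ⟨k, hk, rfl⟩
      exact ⟨⟨a, ha⟩ * k * ⟨a, ha⟩⁻¹, (inferInstance : (χ.ker).Normal).conj_mem k hk ⟨a, ha⟩, rfl⟩
    · rintro a ha n ⟨k, hk, hka⟩
      refine ⟨⟨a, ha⟩, ?_, rfl⟩
      have h1 : (⟨a, ha⟩ : F.autGroup T) ^ p ^ n = k := Subtype.ext hka.symm
      have h2 : χ ⟨a, ha⟩ ^ p ^ n = 1 := by rw [← map_pow, h1]; exact hk
      have h3 : orderOf (χ ⟨a, ha⟩) ∣ p ^ n := orderOf_dvd_of_pow_eq_one h2
      have h4 : orderOf (χ ⟨a, ha⟩) ∣ Nat.card Δ := orderOf_dvd_natCard _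
      have h5 : orderOf (χ ⟨a, ha⟩) = 1 := Nat.eq_one_of_dvd_coprimes (hΔ.pow_right n) h4 h3
      exact orderOf_eq_one_iff.mp h5
  refine ⟨hKD.F₀ hS, hKD.F₀_normal hS, fun heq => ?_, hKD.le_F₀ hS, fun α => ?_, fun R hR => hKD.residual_le hS hR⟩
  · have h1 : F.autGroup S ≤ hKD.H := by
      intro α hα
      rw [← hKD.mem_F₀ hS]
      have h2 := (mem_autGroup F le_rfl).mp hα
      refine mem_autGroup_of_iso _ ?_
      have h3 : S.subtype.comp α.toMonoidHom ∈ F.Hom S := h2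
      rw [← heq S] at h3
      exact h3
    have h2 := hKD.eq_top hS h1
    obtain ⟨d, hd⟩ := exists_ne (1 : Δ)
    obtain ⟨x, rfl⟩ := hχ d
    obtain ⟨y, hy, hyx⟩ := h2 x.2
    have h3 : y = x := Subtype.ext hyx
    rw [h3] at hy
    exact hd hy
  · rw [hKD.mem_F₀ hS, hKD.mem_H]
    constructor
    · rintro ⟨h1, _, ⟨β, hβ, rfl⟩, h2⟩
      refine ⟨h1, β, hβ, fun t => ?_⟩
      have h3 := h2 t t.2
      rw [ac_apply _ t.2, ac_apply _ (hTS t.2)] at h3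
      exact h3
    · rintro ⟨h1, β, hβ, h2⟩
      refine ⟨h1, β, ⟨β, hβ, rfl⟩, fun x hx => ?_⟩
      rw [ac_apply _ hx, ac_apply _ (hTS hx)]
      exact h2 ⟨x, hx⟩

end Cfsg.Agent.L0.Fus
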