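import Cfsg.Agent.L0.Fus.Prime11
set_option autoImplicit false
/-! Centric subgroups meeting a strongly closed subgroup noncentrally. -/

open Pointwise

namespace Cfsg.Agent.L0.Fus

open Cfsg.Agent.L0 Cfsg.FusionSystem

variable {Ω : Type*} [Group Ω] {S : Subgroup Ω}

section
variable {F : FusionSystem S} {P : Subgroup Ω} {p : ℕ}
variable [Fact p.Prime] [Finite S]

/-- an element of `N_S(P) \ P` acting as an element of `O_p(Aut_F(P))` -/
theorem exists_core_elt (hS : IsPGroup p S) {T : Subgroup Ω} (hT : F.StronglyClosed T) (hPS : P ≤ S)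
    (hcon0 : ¬ centralizerIn T (P ⊓ T) ≤ P ⊓ T) :
    ∃ x ∈ S ⊓ Subgroup.normalizer (P : Set Ω), x ∉ P ∧ ∃ α ∈ ((Cfsg.pCore p ↥(F.autGroup P)).map (F.autGroup P).subtype : Subgroup (MulAut ↥P)), ∀ y : ↥P, ((α y : ↥P) : Ω) = x * (y : Ω) * x⁻¹ := by
  have hTS := hT.1
  haveI := finite_of_le hPS
  haveI := finite_autGroup (S := S) hPS
  haveI : Finite (F.autGroup P) := inferInstance
  have hcon : ¬ centralizerIn T (P ⊓ T) ≤ P := fun h => hcon0 (le_inf h inf_le_left)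
  set C := centralizerIn T (P ⊓ T) with hC
  have hPn : P ≤ Subgroup.normalizer (C : Set Ω) := by
    intro u hu
    have huT := (StronglyClosed.le_normalizer hT) (hPS hu)
    have key : ∀ v ∈ P, ∀ c ∈ C, v * c * v⁻¹ ∈ C := by
      intro v hv c hc
      obtain ⟨hcT, hcc⟩ := mem_centralizerIn.mp hc
      have hvT := (StronglyClosed.le_normalizer hT) (hPS hv)
      refine mem_centralizerIn.mpr ⟨(Subgroup.mem_normalizer_iff.mp hvT c).mp hcT, fun x hx => ?_⟩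
      have hx' := Subgroup.mem_inf.mp hx
      have h1 : v⁻¹ * x * v ∈ P ⊓ T := Subgroup.mem_inf.mpr ⟨P.mul_mem (P.mul_mem (P.inv_mem hv) hx'.1) hv,
        (Subgroup.mem_normalizer_iff''.mp hvT x).mp hx'.2⟩
      have h2 := hcc _ h1
      calc x * (v * c * v⁻¹) = v * ((v⁻¹ * x * v) * c) * v⁻¹ := by group
        _ = v * (c * (v⁻¹ * x * v)) * v⁻¹ := by rw [h2]
        _ = v * c * v⁻¹ * x := by group
    rw [Subgroup.mem_normalizer_iff]
    intro c
    refine ⟨key u hu c, fun h => ?_⟩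
    have h1 := key u⁻¹ (P.inv_mem hu) _ h
    have h2 : u⁻¹ * (u * c * u⁻¹) * u⁻¹⁻¹ = c := by group
    rwa [h2] at h1
  have hCS : C ≤ S := inf_le_left.trans hTS
  have hM : P ⊔ C ≤ S := sup_le hPS hCS
  have hlt : P < P ⊔ C := lt_of_le_of_ne le_sup_left fun h => hcon (by rw [h]; exact le_sup_right)
  haveI := finite_of_le hM
  obtain ⟨y, hyM, hyN, hyP⟩ := exists_mem_normalizer_of_lt (hS.to_le hM) hlt
  have h1 : y ∈ ((P ⊔ C : Subgroup Ω) : Set Ω) := hyM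
  rw [Subgroup.coe_mul_of_left_le_normalizer_right P C hPn] at h1
  obtain ⟨u, hu, c, hc, rfl⟩ := Set.mem_mul.mp h1
  have huN : u ∈ Subgroup.normalizer (P : Set Ω) := Subgroup.le_normalizer hu
  have hcN : c ∈ Subgroup.normalizer (P : Set Ω) := by
    have h2 := (Subgroup.normalizer (P : Set Ω)).mul_mem ((Subgroup.normalizer (P : Set Ω)).inv_mem huN) hyN
    rwa [inv_mul_cancel_left] at h2
  have hcP : c ∉ P := fun h => hyP (P.mul_mem hu h)
  have hcS : c ∈ S := hCS hc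
  obtain ⟨hcT, hcc⟩ := mem_centralizerIn.mp hc
  -- the normal p-subgroup
  let B : Subgroup (MulAut P) :=
    { carrier := {β | β ∈ F.autGroup P ∧ (∀ x : P, (x : Ω) ∈ T → β x = x) ∧ ∀ x : P, (x : Ω)⁻¹ * (β x : P) ∈ T}
      one_mem' := ⟨Subgroup.one_mem _, fun x _ => rfl, fun x => by
        change (x : Ω)⁻¹ * (x : Ω) ∈ T
        rw [inv_mul_cancel]; exact T.one_mem⟩
      mul_mem' := by
        rintro β γ ⟨h1, h2, h3⟩ ⟨h4, h5, h6⟩
        refine ⟨Subgroup.mul_mem _ h1 h4, fun x hx => by rw [MulAut.mul_apply, h5 x hx, h2 x hx], fun x => ?_⟩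
        rw [MulAut.mul_apply]
        have h7 := T.mul_mem (h6 x) (h3 (γ x))
        have h8 : (x : Ω)⁻¹ * (γ x : P) * ((γ x : P) : Ω)⁻¹ * (β (γ x) : P) = (x : Ω)⁻¹ * (β (γ x) : P) := by group
        rw [← mul_assoc, h8] at h7
        exact h7
      inv_mem' := by
        rintro β ⟨h1, h2, h3⟩
        refine ⟨Subgroup.inv_mem _ h1, fun x hx => by rw [MulAut.inv_apply, MulEquiv.symm_apply_eq, h2 x hx], fun x => ?_⟩
        have h4 := h3 (β⁻¹ x)
        rw [MulAut.apply_inv_self] at h4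
        have h5 := T.inv_mem h4
        rwa [mul_inv_rev, inv_inv] at h5 }
  have hBmem : ∀ β : MulAut P, β ∈ B ↔ β ∈ F.autGroup P ∧ (∀ x : P, (x : Ω) ∈ T → β x = x) ∧ ∀ x : P, (x : Ω)⁻¹ * (β x : P) ∈ T := fun β => Iff.rfl
  have hBp : IsPGroup p B := by
    obtain ⟨k, hk⟩ := IsPGroup.iff_card.mp (hS.to_le hPS)
    rintro ⟨β, hβ⟩
    obtain ⟨h1, h2, h3⟩ := (hBmem β).mp hβ
    refine ⟨k, Subtype.ext ?_⟩
    change β ^ p ^ k = 1
    have h4 : ∀ (n : ℕ) (x : P), (β ^ n) x = x * (x⁻¹ * β x) ^ n := by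
      intro n x
      induction n with
      | zero => simp
      | succ n ih =>
        rw [pow_succ', MulAut.mul_apply, ih, map_mul, map_pow]
        have h5 : β (x⁻¹ * β x) = x⁻¹ * β x := h2 _ (h3 x)
        rw [h5, pow_succ', ← mul_assoc x, mul_inv_cancel_left]
    ext x
    rw [h4, ← hk, pow_card_eq_one']
    simp
  have hBn : ∀ α ∈ F.autGroup P, ∀ o ∈ B, α * o * α⁻¹ ∈ B := by
    intro α hα o ho
    obtain ⟨h1, h2, h3⟩ := (hBmem o).mp ho
    refine ⟨Subgroup.mul_mem _ (Subgroup.mul_mem _ hα h1) (Subgroup.inv_mem _ hα), fun x hx => ?_, fun x => ?_⟩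
    · rw [MulAut.mul_apply, MulAut.mul_apply, h2 _ (StronglyClosed.aut_mem hT hPS (Subgroup.inv_mem _ hα) hx), MulAut.apply_inv_self]
    · rw [MulAut.mul_apply, MulAut.mul_apply]
      have h4 := StronglyClosed.aut_mem hT hPS hα (x := (α⁻¹ x)⁻¹ * o (α⁻¹ x)) (h3 (α⁻¹ x))
      rw [map_mul, map_inv, MulAut.apply_inv_self] at h4
      exact h4
  set τ := P.normalizerMonoidHom ⟨c, hcN⟩ with hτ
  have hτA : τ ∈ F.autGroup P := autInducedBy_le_autGroup F hPS (mem_autInducedBy.mpr ⟨c, hcS, fun x => rfl⟩)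
  have hτB : τ ∈ B := by
    refine (hBmem τ).mpr ⟨hτA, fun x hx => Subtype.ext ?_, fun x => ?_⟩
    · change c * x * c⁻¹ = x
      rw [← hcc x (Subgroup.mem_inf.mpr ⟨x.2, hx⟩)]; group
    · change (x : Ω)⁻¹ * (c * x * c⁻¹) ∈ T
      have h2 := (Subgroup.mem_normalizer_iff''.mp ((StronglyClosed.le_normalizer hT) (hPS x.2)) c).mp hcT
      have h3 : (x : Ω)⁻¹ * (c * x * c⁻¹) = ((x : Ω)⁻¹ * c * x) * c⁻¹ := by group
      rw [h3]
      exact T.mul_mem h2 (T.inv_mem hcT)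
  have hBn' : (B.subgroupOf (F.autGroup P)).Normal := ⟨fun o ho α => hBn α α.2 o ho⟩
  have h2 : B.subgroupOf (F.autGroup P) ≤ pCore p (F.autGroup P) := le_pCore (IsPGroup.comap_subtype hBp)
  exact ⟨c, Subgroup.mem_inf.mpr ⟨hcS, hcN⟩, hcP, τ, ⟨⟨τ, hτA⟩, h2 (Subgroup.mem_subgroupOf.mpr hτB), rfl⟩, fun y => rfl⟩

/-- S5251 -/
theorem centric_meet (hS : IsPGroup p S) {T : Subgroup Ω} {E : FusionSystem T} (hE : E.IsWeaklyNormalIn F p)
    (hPc : F.IsCentric P) (hPT : ¬ E.IsCentric (P ⊓ T)) :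
    (∃ φ ∈ F.Hom P, ∃ x ∈ S ⊓ Subgroup.normalizer (φ.range : Set Ω), x ∉ φ.range ∧ ∃ α ∈ ((Cfsg.pCore p ↥(F.autGroup φ.range)).map (F.autGroup φ.range).subtype : Subgroup (MulAut ↥φ.range)), ∀ y : ↥φ.range, ((α y : ↥φ.range) : Ω) = x * (y : Ω) * x⁻¹) ∧ ¬ F.IsRadical p P := by
  refine ⟨?_, fun hr => hPT (inf_centric hS hE hPc hr)⟩
  have hF := hE.2.1
  have hinv := hE.2.2
  have hT := hinv.2.1
  have hTS : T ≤ S := hT.1
  haveI : Finite T := finite_of_le hTS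
  have hPS := hPc.1
  obtain ⟨Q, hRQ, hQ⟩ := exists_fullyNormalized (F := F) (show P ⊓ T ≤ S from inf_le_left.trans hPS)
  obtain ⟨φ, hφ, hφN, hφR⟩ := exists_map_normalizerIn hS (fullyAutomized_of_fullyNormalized_sat hS hF hQ)
    (receptive_of_fullyNormalized_sat hS hF hQ) hRQ
  have hκ := mi_toF.mpr hφ
  have hPN : P ≤ normalizerIn S (P ⊓ T) := by
    intro u hu
    refine mem_normalizerIn.mpr ⟨hPS hu, ?_⟩
    have huT := (StronglyClosed.le_normalizer hT) (hPS hu)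
    rw [Subgroup.mem_normalizer_iff]
    intro x
    constructor
    · intro hx
      have hx' := Subgroup.mem_inf.mp hx
      exact Subgroup.mem_inf.mpr ⟨P.mul_mem (P.mul_mem hu hx'.1) (P.inv_mem hu), (Subgroup.mem_normalizer_iff.mp huT x).mp hx'.2⟩
    · intro hx
      have hx' := Subgroup.mem_inf.mp hx
      refine Subgroup.mem_inf.mpr ⟨?_, (Subgroup.mem_normalizer_iff.mp huT x).mpr hx'.2⟩
      have h1 := P.mul_mem (P.mul_mem (P.inv_mem hu) hx'.1) hu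
      have h2 : u⁻¹ * (u * x * u⁻¹) * u = x := by group
      rwa [h2] at h1
  obtain ⟨P₁, hP₁, hκP, -⟩ := hκ.restrict hPN
  have h1 := hκP.inf hTS hT
  have hR : P₁ ⊓ T = Q := by
    have h2 : Mi F (P ⊓ T) Q (toF φ) := by
      have hRN : P ⊓ T ≤ normalizerIn S (P ⊓ T) := inf_le_left.trans hPN
      refine hκ.restrict_of hRN fun y => ?_
      rw [← hφR]
      constructor
      · rintro ⟨x, hx, rfl⟩
        exact ⟨x, hx, toF_apply φ x.2⟩
      · rintro ⟨x, hx, rfl⟩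
        exact ⟨⟨x, hRN hx⟩, hx, (toF_apply φ (hRN hx)).symm⟩
    exact ((mi_restrictSystem hTS).mp h1).1.range_unique h2 (fun _ _ => rfl)
  have hQT : Q ≤ T := by rw [← hR]; exact inf_le_right
  have hcon : ¬ centralizerIn T (P₁ ⊓ T) ≤ P₁ ⊓ T := by
    intro h2
    rw [hR] at h2
    have h3 := fullyNormalized_sub inferInstance hS hF hinv.1 hT hQT hQ
    have h4 := centric_of_fullyCentralized (fc_of_fn (hS.to_le hTS) hE.1 h3) h2
    have hG := gd_of_invariant hTS hinv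
    rw [hR] at h1
    obtain ⟨g, hg, -, -⟩ := h1.symm
    exact hPT (centric_of_fr hG (fun _ _ _ h => fr_of_invariant hTS hinv h) h4 hg)
  obtain ⟨x, hx, hxP, α, hα, hαx⟩ := exists_core_elt (F := F) hS hT hκP.le' hcon
  obtain ⟨θ, hθ, -, h2⟩ := hκP
  subst h2
  exact ⟨θ, hθ, x, hx, hxP, α, hα, hαx⟩

end

end Cfsg.Agent.L0.Fus
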