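import Cfsg.Agent.L0.Fus.Hyp
/-! normality from weakly closed central series -/
set_option autoImplicit false
set_option linter.style.haveILetI false
set_option linter.unusedVariables false
set_option linter.unusedSectionVars false
open Pointwise
open scoped commutatorElement

namespace Cfsg.Agent.L0.Fus

open Cfsg.Agent.L0 Cfsg.FusionSystem

variable {Ω : Type*} [Group Ω] {S : Subgroup Ω} {F : FusionSystem S} [Finite S] {p : ℕ} [Fact p.Prime]

theorem weaklyClosed_of_strongly {Q : Subgroup Ω} (hQ : F.StronglyClosed Q) : F.WeaklyClosed Q := by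
  haveI := finite_of_le hQ.1
  refine ⟨hQ.1, fun φ hφ => ?_⟩
  apply le_antisymm
  · rintro _ ⟨x, rfl⟩; exact StronglyClosed.mem hQ hφ x.2
  · exact le_range hQ hφ le_rfl

theorem WeaklyClosed.le_normalizer {Q : Subgroup Ω} (hQ : F.WeaklyClosed Q) : S ≤ Subgroup.normalizer (Q : Set Ω) := by
  intro s hs
  have h1 := hQ.2 _ (F.conj_mem hQ.1 hs)
  rw [range_conjHom] at h1
  exact mem_normalizer_conj.mpr h1

theorem WeaklyClosed.aut_mem {Q : Subgroup Ω} (hQ : F.WeaklyClosed Q) {P : Subgroup Ω} (hP : P ≤ S) (hQP : Q ≤ P) {α : MulAut P}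
    (hα : α ∈ F.autGroup P) {x : P} (hx : (x : Ω) ∈ Q) : ((α x : P) : Ω) ∈ Q := by
  have h1 := hQ.2 _ (restrict_mem F ((mem_autGroup F hP).mp hα) hQP)
  rw [← h1]
  exact ⟨⟨x, hx⟩, rfl⟩

theorem normal_of_weakly_chain (hS : IsPGroup p S) (hF : F.IsSaturated p) (Q : Subgroup Ω) (hQsc : F.StronglyClosed Q) (n : ℕ) (C : ℕ → Subgroup Ω)
    (h0 : C 0 = ⊥) (hn : C n = Q) (hmono : ∀ i, C i ≤ C (i + 1)) (hwc : ∀ i, i < n → F.WeaklyClosed (C i))
    (hcomm : ∀ i, i < n → ⁅C (i + 1), Q⁆ ≤ C i) : F.IsNormal Q := by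
  rw [normal_iff_stronglyClosed hS hF]
  refine ⟨hQsc, fun P hPc hPr => ?_⟩
  have hPS := hPc.1
  haveI := finite_of_le hPS
  haveI := finite_autGroup (S := S) hPS
  have hCle : ∀ i, i ≤ n → C i ≤ Q := by
    have hm : Monotone C := monotone_nat_of_le_succ hmono
    intro i hi
    rw [← hn]; exact hm hi
  suffices h : ∀ m, m ≤ n → C m ≤ P by rw [← hn]; exact h n le_rfl
  intro m
  induction m with
  | zero => intro _; rw [h0]; exact bot_le
  | succ m ih =>
    intro hm
    have hCm : ∀ j, j ≤ m → C j ≤ P := by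
      intro j hj
      have hmono' : Monotone C := monotone_nat_of_le_succ hmono
      exact (hmono' hj).trans (ih (by omega))
    let D : ℕ → Subgroup P := fun i => if i ≤ m then (C i).subgroupOf P else if i = m + 1 then Q.subgroupOf P else ⊤
    have hD : ∀ i, i ≤ m → D i = (C i).subgroupOf P := fun i hi => if_pos hi
    have hDQ : D (m + 1) = Q.subgroupOf P := by
      change (if m + 1 ≤ m then _ else if m + 1 = m + 1 then _ else _) = _
      rw [if_neg (by omega), if_pos rfl]
    have hDtop : ∀ i, m + 1 < i → D i = ⊤ := fun i hi => by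
      change (if i ≤ m then _ else if i = m + 1 then _ else _) = _
      rw [if_neg (by omega), if_neg (by omega)]
    have hD0 : D 0 = ⊥ := by
      rw [hD 0 (Nat.zero_le _), h0]
      exact Subgroup.bot_subgroupOf P
    have hDmono : ∀ i, D i ≤ D (i + 1) := by
      intro i
      by_cases hi : i + 1 ≤ m
      · rw [hD i (by omega), hD (i + 1) hi]
        exact Subgroup.comap_mono (hmono i)
      · by_cases hi2 : i = m
        · subst hi2
          rw [hD i le_rfl, hDQ]
          exact Subgroup.comap_mono (hCle i (by omega))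
        · rw [hDtop (i + 1) (by omega)]; exact le_top
    have hDinv : ∀ α : F.autGroup P, ∀ i, ∀ x ∈ D i, (α : MulAut P) x ∈ D i := by
      intro α i x hx
      by_cases hi : i ≤ m
      · rw [hD i hi] at hx ⊢
        exact Subgroup.mem_subgroupOf.mpr (WeaklyClosed.aut_mem (hwc i (by omega)) hPS (hCm i hi) α.2 (Subgroup.mem_subgroupOf.mp hx))
      · by_cases hi2 : i = m + 1
        · subst hi2
          rw [hDQ] at hx ⊢
          exact Subgroup.mem_subgroupOf.mpr (StronglyClosed.aut_mem hQsc hPS α.2 (Subgroup.mem_subgroupOf.mp hx))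
        · rw [hDtop i (by omega)]; trivial
    let B : Subgroup (F.autGroup P) :=
      { carrier := {α | ∀ i, ∀ x ∈ D (i + 1), x⁻¹ * (α : MulAut P) x ∈ D i}
        one_mem' := by
          intro i x hx
          simp only [OneMemClass.coe_one, MulAut.one_apply, inv_mul_cancel]
          exact Subgroup.one_mem _
        mul_mem' := by
          intro a b ha hb i x hx
          have h1 := hb i x hx
          have h2 := ha i _ (hDinv b (i + 1) x hx)
          have h3 := (D i).mul_mem h1 h2
          have e : x⁻¹ * (b : MulAut P) x * (((b : MulAut P) x)⁻¹ * (a : MulAut P) ((b : MulAut P) x)) =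
            x⁻¹ * ((a * b : F.autGroup P) : MulAut P) x := by
            change _ = x⁻¹ * (a : MulAut P) ((b : MulAut P) x)
            group
          rwa [e] at h3
        inv_mem' := by
          intro a ha i x hx
          have h1 := ha i _ (hDinv a⁻¹ (i + 1) x hx)
          have h2 : (a : MulAut P) (((a⁻¹ : F.autGroup P) : MulAut P) x) = x := by
            change (a : MulAut P) ((a : MulAut P)⁻¹ x) = x
            exact MulAut.apply_inv_self P _ x
          rw [h2] at h1
          have h3 := (D i).inv_mem h1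
          have e : ((((a⁻¹ : F.autGroup P) : MulAut P) x)⁻¹ * x)⁻¹ = x⁻¹ * ((a⁻¹ : F.autGroup P) : MulAut P) x := by group
          rwa [e] at h3 }
    have hBmem : ∀ α : F.autGroup P, α ∈ B ↔ ∀ i, ∀ x ∈ D (i + 1), x⁻¹ * (α : MulAut P) x ∈ D i := fun α => Iff.rfl
    have hCS : C (m + 1) ≤ S := (hCle _ hm).trans hQsc.1
    have hCn : S ≤ Subgroup.normalizer (C (m + 1) : Set Ω) := by
      by_cases hmn : m + 1 < n
      · exact WeaklyClosed.le_normalizer (hwc _ hmn)
      · have : m + 1 = n := by omega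
        rw [this, hn]; exact StronglyClosed.le_normalizer hQsc
    refine le_of_centric_radical hS hPc hPr hCS hCn B ?_ ?_ ?_
    · refine ⟨fun α hα β => ?_⟩
      rw [hBmem] at hα ⊢
      intro i x hx
      have h1 := hα i _ (hDinv β⁻¹ (i + 1) x hx)
      have h2 := hDinv β i _ h1
      rw [map_mul, map_inv] at h2
      have h3 : (β : MulAut P) (((β⁻¹ : F.autGroup P) : MulAut P) x) = x := MulAut.apply_inv_self P _ x
      rw [h3] at h2
      exact h2
    · intro α
      obtain ⟨k, hk⟩ := pow_stab_chain (hS.to_le hPS) D hD0 hDmono ((hBmem α).mp α.2) (m + 2)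
      refine ⟨k, ?_⟩
      apply Subtype.ext
      apply Subtype.ext
      ext x
      have := hk x (by rw [hDtop (m + 2) (by omega)]; trivial)
      exact congrArg Subtype.val this
    · rintro α ⟨y, hy, hyα⟩
      rw [hBmem]
      intro i x hx
      have hyQ : y ∈ Q := hCle _ hm hy
      have ecomm : (x : Ω)⁻¹ * (y * x * y⁻¹) = ⁅(x : Ω)⁻¹, y⁆ := by
        rw [commutatorElement_def]; group
      by_cases hi : i + 1 ≤ m
      · rw [hD i (by omega)]
        rw [hD (i + 1) hi] at hx
        apply Subgroup.mem_subgroupOf.mpr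
        have hx' : (x : Ω) ∈ C (i + 1) := Subgroup.mem_subgroupOf.mp hx
        have h1 : (x : Ω)⁻¹ * (y * x * y⁻¹) ∈ C i := by
          apply hcomm i (by omega)
          rw [ecomm]
          exact Subgroup.commutator_mem_commutator ((C (i + 1)).inv_mem hx') hyQ
        change (x : Ω)⁻¹ * (((α : MulAut P) x : P) : Ω) ∈ C i
        rw [hyα]; exact h1
      · by_cases hi2 : i = m
        · subst hi2
          rw [hD i le_rfl]
          rw [hDQ] at hx
          apply Subgroup.mem_subgroupOf.mpr
          have hx' : (x : Ω) ∈ Q := Subgroup.mem_subgroupOf.mp hx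
          change (x : Ω)⁻¹ * (((α : MulAut P) x : P) : Ω) ∈ C i
          rw [hyα, ecomm]
          apply hcomm i (by omega)
          rw [Subgroup.commutator_comm]
          exact Subgroup.commutator_mem_commutator (Q.inv_mem hx') hy
        · by_cases hi3 : i = m + 1
          · subst hi3
            rw [hDQ]
            apply Subgroup.mem_subgroupOf.mpr
            change (x : Ω)⁻¹ * (((α : MulAut P) x : P) : Ω) ∈ Q
            rw [hyα]
            have h1 : (x : Ω)⁻¹ * y * ((x : Ω)⁻¹)⁻¹ ∈ Q :=
              (Subgroup.mem_normalizer_iff.mp (StronglyClosed.le_normalizer hQsc (S.inv_mem (hPS x.2))) y).mp hyQ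
            have h2 := Q.mul_mem h1 (Q.inv_mem hyQ)
            have e : (x : Ω)⁻¹ * y * ((x : Ω)⁻¹)⁻¹ * y⁻¹ = (x : Ω)⁻¹ * (y * x * y⁻¹) := by group
            rwa [e] at h2
          · rw [hDtop i (by omega)]; trivial

/-- S5226 -/
theorem normal_iff_weakly_chain (hS : IsPGroup p S) (hF : F.IsSaturated p) (Q : Subgroup Ω) : F.IsNormal Q ↔ F.StronglyClosed Q ∧ ∃ (n : ℕ) (C : Fin (n + 1) → Subgroup Ω), C 0 = ⊥ ∧ C (Fin.last n) = Q ∧ Monotone C ∧ (∀ i : Fin n, ⁅C i.succ, Q⁆ ≤ C i.castSucc) ∧ ∀ i : Fin n, F.WeaklyClosed (C i.castSucc) := by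
  constructor
  · intro h
    refine ⟨stronglyClosed_of_normal h, ?_⟩
    obtain ⟨n, C, h0, hn, hm, hc⟩ := (normal_iff_chain hS hF Q).mp h
    refine ⟨n, C, h0, hn, hm, fun i => by rw [Subgroup.commutator_comm]; exact (hc i).2, fun i => ?_⟩
    rcases Fin.eq_zero_or_eq_succ i.castSucc with h1 | ⟨j, h1⟩
    · rw [h1, h0]
      exact weaklyClosed_of_strongly (stronglyClosed_of_normal (normal_bot F))
    · rw [h1]
      exact weaklyClosed_of_strongly (hc j).1
  · rintro ⟨hsc, n, C, h0, hn, hm, hc, hw⟩
    refine normal_of_weakly_chain hS hF Q hsc n (fun i => if h : i < n + 1 then C ⟨i, h⟩ else Q) ?_ ?_ ?_ ?_ ?_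
    · simp only [Nat.zero_lt_succ, dif_pos]; exact h0
    · simp only [Nat.lt_succ_self, dif_pos]; exact hn
    · intro i
      by_cases h1 : i + 1 < n + 1
      · simp only [h1, (by omega : i < n + 1), dif_pos]
        exact hm (Fin.mk_le_mk.mpr (Nat.le_succ i))
      · by_cases h2 : i < n + 1
        · simp only [h1, h2, dif_pos, dif_neg, not_false_iff]
          have : i = n := by omega
          subst this
          exact hn.le
        · simp only [h1, h2, dif_neg, not_false_iff]; exact le_rfl
    · intro i hi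
      simp only [(by omega : i < n + 1), dif_pos]
      exact hw ⟨i, hi⟩
    · intro i hi
      simp only [(by omega : i < n + 1), (by omega : i + 1 < n + 1), dif_pos]
      exact hc ⟨i, hi⟩

end Cfsg.Agent.L0.Fus
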